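import Mathlib

/-!
Overgroups of product-action wreath products, part A: one coordinate split off.
-/

set_option autoImplicit false

namespace Cfsg.Lib.PAct

open Equiv Equiv.Perm MulAction
open scoped commutatorElement Pointwise

section Sym

variable {A : Type*} [DecidableEq A]

/-- The 3-cycle `a → b → c → a`. -/
def c3 (a b c : A) : Perm A := swap a b * swap b c

theorem c3_a {a b c : A} (ab : a ≠ b) (ac : a ≠ c) : c3 a b c a = b := by
  simp [c3, swap_apply_of_ne_of_ne ab ac]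

theorem c3_b {a b c : A} (ac : a ≠ c) (bc : b ≠ c) : c3 a b c b = c := by
  simp [c3, swap_apply_of_ne_of_ne ac.symm bc.symm]

theorem c3_c (a b c : A) : c3 a b c c = a := by simp [c3]

theorem c3_o {a b c x : A} (xa : x ≠ a) (xb : x ≠ b) (xc : x ≠ c) : c3 a b c x = x := by
  simp [c3, swap_apply_of_ne_of_ne xb xc, swap_apply_of_ne_of_ne xa xb]

variable [Fintype A]

theorem c3_three {a b c : A} (ab : a ≠ b) (ac : a ≠ c) (bc : b ≠ c) :
    (c3 a b c).IsThreeCycle := by
  rw [c3, swap_comm a b]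
  exact isThreeCycle_swap_mul_swap_same ab.symm bc ac

theorem c3_alt {a b c : A} (ab : a ≠ b) (ac : a ≠ c) (bc : b ≠ c) :
    c3 a b c ∈ alternatingGroup A := (c3_three ab ac bc).mem_alternatingGroup

theorem fresh (h5 : 5 ≤ Fintype.card A) (a b c d : A) :
    ∃ x, x ≠ a ∧ x ≠ b ∧ x ≠ c ∧ x ≠ d := by
  by_contra h
  push Not at h
  have : (Finset.univ : Finset A) ⊆ {a, b, c, d} := by
    intro x _
    by_cases h1 : x = a
    · simp [h1]
    by_cases h2 : x = b
    · simp [h2]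
    by_cases h3 : x = c
    · simp [h3]
    simp [h x h1 h2 h3]
  have h1 := Finset.card_le_card this
  have h2 : ({a, b, c, d} : Finset A).card ≤ 4 := Finset.card_le_four
  rw [Finset.card_univ] at h1
  omega

theorem exists_c3 {σ : Perm A} (h : σ.IsThreeCycle) :
    ∃ a b c, a ≠ b ∧ a ≠ c ∧ b ≠ c ∧ σ = c3 a b c := by
  obtain ⟨a, ha⟩ : σ.support.Nonempty := by
    rw [← Finset.card_pos, h.card_support]; norm_num
  have h1 := h.nodup_iff_mem_support.2 ha
  refine ⟨a, σ a, σ (σ a), ?_, ?_, ?_, h.eq_swap_mul_swap_iff_mem_support.2 ha⟩ <;>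
    simp only [List.nodup_cons, List.mem_cons, not_or] at h1 <;> tauto

/-- Parity can be adjusted away from three points. -/
theorem adj (h5 : 5 ≤ Fintype.card A) (τ : Perm A) (a b c : A) :
    ∃ σ ∈ alternatingGroup A, σ a = τ a ∧ σ b = τ b ∧ σ c = τ c := by
  rcases Int.units_eq_one_or (sign τ) with h | h
  · exact ⟨τ, mem_alternatingGroup.2 h, rfl, rfl, rfl⟩
  obtain ⟨x, xa, xb, xc, -⟩ := fresh h5 a b c c
  obtain ⟨y, ya, yb, yc, yx⟩ := fresh h5 a b c x
  refine ⟨τ * swap x y, ?_, ?_, ?_, ?_⟩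
  · rw [mem_alternatingGroup, map_mul, h, sign_swap yx.symm]; simp
  · rw [mul_apply, swap_apply_of_ne_of_ne xa.symm ya.symm]
  · rw [mul_apply, swap_apply_of_ne_of_ne xb.symm yb.symm]
  · rw [mul_apply, swap_apply_of_ne_of_ne xc.symm yc.symm]

theorem two_trans (h5 : 5 ≤ Fintype.card A) {a b c d : A} (ab : a ≠ b) (cd : c ≠ d) :
    ∃ σ ∈ alternatingGroup A, σ a = c ∧ σ b = d := by
  obtain ⟨σ, hσ, h1, h2, -⟩ := adj h5 (swap (swap a c b) d * swap a c) a b b
  refine ⟨σ, hσ, ?_, ?_⟩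
  · rw [h1, mul_apply, swap_apply_left, swap_apply_of_ne_of_ne _ cd]
    intro h
    exact ab ((swap a c).injective (by rw [swap_apply_left]; exact h))
  · rw [h2, mul_apply, swap_apply_left]

theorem exists_noncomm (h5 : 5 ≤ Fintype.card A) {k : Perm A} (hk : k ≠ 1) :
    ∃ σ : Perm A, σ.IsThreeCycle ∧ σ * k ≠ k * σ := by
  obtain ⟨x, hx⟩ : ∃ x, k x ≠ x := by
    by_contra h
    push Not at h
    exact hk (Equiv.ext h)
  obtain ⟨u, ux, uk, -, -⟩ := fresh h5 x (k x) x x
  obtain ⟨v, vx, vk, vu, -⟩ := fresh h5 x (k x) u u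
  refine ⟨c3 (k x) u v, c3_three uk.symm vk.symm vu.symm, fun h => ?_⟩
  have := congrArg (fun g : Perm A => g x) h
  simp only [mul_apply] at this
  rw [c3_a uk.symm vk.symm, c3_o hx.symm ux.symm vx.symm] at this
  exact uk this

/-- A nontrivial subgroup normalised by the alternating group contains it. -/
theorem alt_le (h5 : 5 ≤ Fintype.card A) (K : Subgroup (Perm A))
    (hK : ∀ σ ∈ alternatingGroup A, ∀ k ∈ K, σ * k * σ⁻¹ ∈ K) {k : Perm A} (hk : k ∈ K)
    (h1 : k ≠ 1) : alternatingGroup A ≤ K := by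
  obtain ⟨σ, hσ, hn⟩ := exists_noncomm h5 h1
  have hN : (K.subgroupOf (alternatingGroup A)).Normal := ⟨fun x hx g => hK g g.2 x hx⟩
  rcases alternatingGroup.normal_subgroup_eq_bot_or_eq_top
    (by simpa using h5) (N := K.subgroupOf (alternatingGroup A)) with h | h
  · exfalso
    have hm : σ * k * σ⁻¹ * k⁻¹ ∈ alternatingGroup A := by
      rw [mem_alternatingGroup]
      simp only [map_mul, map_inv, hσ.sign, one_mul, inv_one, mul_one, mul_inv_cancel]
    have : (⟨_, hm⟩ : alternatingGroup A) ∈ K.subgroupOf (alternatingGroup A) :=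
      K.mul_mem (hK σ hσ.mem_alternatingGroup k hk) (K.inv_mem hk)
    rw [h, Subgroup.mem_bot] at this
    have h2 : σ * k * σ⁻¹ * k⁻¹ = 1 := congrArg Subtype.val this
    apply hn
    rw [mul_inv_eq_one, mul_inv_eq_iff_eq_mul] at h2
    exact h2
  · exact Subgroup.subgroupOf_eq_top.1 h

end Sym

section Prd

variable {A B : Type*}

/-- Product of two permutations. -/
def pc (τ : Perm A) (w : Perm B) : Perm (A × B) := Equiv.prodCongr τ w

@[simp] theorem pc_apply (τ : Perm A) (w : Perm B) (a : A) (b : B) :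
    pc τ w (a, b) = (τ a, w b) := rfl

theorem pc_mul (τ τ' : Perm A) (w w' : Perm B) : pc τ w * pc τ' w' = pc (τ * τ') (w * w') :=
  Equiv.ext fun _ => rfl

theorem pc_inv (τ : Perm A) (w : Perm B) : (pc τ w)⁻¹ = pc τ⁻¹ w⁻¹ := rfl

theorem pc_one : pc (1 : Perm A) (1 : Perm B) = 1 := Equiv.ext fun _ => rfl

/-- Line-preserving permutations. -/
def lp : (B → Perm A) →* Perm (A × B) where
  toFun e := Equiv.prodCongrLeft e
  map_one' := Equiv.ext fun _ => rfl
  map_mul' _ _ := Equiv.ext fun _ => rfl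

@[simp] theorem lp_apply (e : B → Perm A) (a : A) (b : B) : lp e (a, b) = (e b a, b) := rfl

/-- A permutation of one hyperplane. -/
def on [DecidableEq A] (c : A) (ρ : Perm B) : Perm (A × B) :=
  Equiv.prodCongrRight fun a => if a = c then ρ else 1

theorem on_same [DecidableEq A] (c : A) (ρ : Perm B) (b : B) : on c ρ (c, b) = (c, ρ b) := by
  simp [on]

theorem on_ne [DecidableEq A] {c a : A} (h : a ≠ c) (ρ : Perm B) (b : B) :
    on c ρ (a, b) = (a, b) := by
  simp [on, h]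

theorem inv_apply_of {X : Type*} {g : Perm X} {x y : X} (h : g x = y) : g⁻¹ y = x := by
  rw [← h]; simp

variable [Fintype A] [DecidableEq A] [Fintype B] [DecidableEq B]

/-- The basic hypotheses. -/
structure Fr (G : Subgroup (Perm (A × B))) (W : Subgroup (Perm B)) : Prop where
  h5 : 5 ≤ Fintype.card A
  alt : ∀ σ ∈ alternatingGroup A, pc σ 1 ∈ G
  lift : ∀ w ∈ W, ∃ τ, pc τ w ∈ G
  prim : IsPreprimitive W B
  n3 : ∀ g ∈ G, ¬ g.IsThreeCycle

variable {G : Subgroup (Perm (A × B))} {W : Subgroup (Perm B)}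

theorem Fr.lift3 (h : Fr G W) {w : Perm B} (hw : w ∈ W) (a b c : A) :
    ∃ τ : Perm A, τ a = a ∧ τ b = b ∧ τ c = c ∧ pc τ w ∈ G := by
  obtain ⟨τ, hτ⟩ := h.lift w hw
  obtain ⟨σ, hσ, h1, h2, h3⟩ := adj h.h5 τ a b c
  refine ⟨σ⁻¹ * τ, ?_, ?_, ?_, ?_⟩
  · rw [mul_apply, ← h1]; simp
  · rw [mul_apply, ← h2]; simp
  · rw [mul_apply, ← h3]; simp
  · have := G.mul_mem (h.alt _ (inv_mem hσ)) hτ
    rwa [pc_mul, one_mul] at this

theorem Fr.no_proper (h : Fr G W) (n : ℕ) : ∀ e : B → Perm A, lp e ∈ G →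
    (Finset.univ.filter fun b => e b ≠ 1).card = n → ∀ b0 b1, e b0 = 1 → e b1 = 1 := by
  induction n using Nat.strong_induction_on with
  | _ n ih =>
  intro e he hn b0 b1 h0
  by_contra h1
  have key : ∀ b, e b ≠ 1 → ∀ σ ∈ alternatingGroup A,
      ∃ e' : B → Perm A, lp e' ∈ G ∧ (∀ b', e b' = 1 → e' b' = 1) ∧ e' b = σ := by
    intro b hb
    let K : Subgroup (Perm A) :=
      { carrier := {σ | ∃ e' : B → Perm A, lp e' ∈ G ∧ (∀ b', e b' = 1 → e' b' = 1) ∧ e' b = σ}
        one_mem' := ⟨1, by rw [map_one]; exact one_mem _, fun _ _ => rfl, rfl⟩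
        mul_mem' := by
          rintro _ _ ⟨x, hx, hx1, rfl⟩ ⟨y, hy, hy1, rfl⟩
          exact ⟨x * y, by rw [map_mul]; exact mul_mem hx hy,
            fun b' hb' => by simp [hx1 b' hb', hy1 b' hb'], rfl⟩
        inv_mem' := by
          rintro _ ⟨x, hx, hx1, rfl⟩
          exact ⟨x⁻¹, by rw [map_inv]; exact inv_mem hx, fun b' hb' => by simp [hx1 b' hb'], rfl⟩ }
    refine alt_le h.h5 K ?_ (k := e b) ⟨e, he, fun _ h => h, rfl⟩ hb
    rintro σ hσ _ ⟨x, hx, hx1, rfl⟩
    refine ⟨fun b' => σ * x b' * σ⁻¹, ?_, fun b' hb' => by simp [hx1 b' hb'], rfl⟩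
    have := mul_mem (mul_mem (h.alt σ hσ) hx) (h.alt _ (inv_mem hσ))
    exact this
  by_cases hs : ∀ b, e b ≠ 1 → b = b1
  · obtain ⟨x, -⟩ : ∃ _ : A, True := by
      have : Nonempty A := Fintype.card_pos_iff.1 (by have := h.h5; omega)
      exact ⟨this.some, trivial⟩
    obtain ⟨y, yx, -⟩ := fresh h.h5 x x x x
    obtain ⟨z, zx, zy, -⟩ := fresh h.h5 x y y y
    obtain ⟨e', he', h1', h2'⟩ := key b1 h1 _ (c3_alt yx.symm zx.symm zy.symm)
    apply h.n3 _ he'
    have : lp e' = c3 (x, b1) (y, b1) (z, b1) := by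
      ext ⟨a, b⟩ : 1
      by_cases hb : b = b1
      · subst hb
        rw [lp_apply, h2']
        by_cases ax : a = x
        · subst ax; rw [c3_a yx.symm zx.symm, c3_a (by simpa using yx.symm) (by simpa using zx.symm)]
        by_cases ay : a = y
        · subst ay; rw [c3_b zx.symm zy.symm, c3_b (by simpa using zx.symm) (by simpa using zy.symm)]
        by_cases az : a = z
        · subst az; rw [c3_c, c3_c]
        rw [c3_o ax ay az, c3_o (by simpa using ax) (by simpa using ay) (by simpa using az)]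
      · rw [lp_apply, h1' b (by by_contra hh; exact hb (hs b hh)),
          c3_o (by simp [hb]) (by simp [hb]) (by simp [hb])]
        rfl
    rw [this]
    exact c3_three (by simpa using yx.symm) (by simpa using zx.symm) (by simpa using zy.symm)
  push Not at hs
  obtain ⟨b2, hb2, b21⟩ := hs
  have := h.prim
  obtain ⟨κ, hκ1, hκ2⟩ := IsPreprimitive.exists_mem_smul_and_notMem_smul (G := W)
    (A := {b | e b ≠ 1}) (Set.toFinite _) ⟨b1, h1⟩
    (fun hu => (hu ▸ Set.mem_univ b0 : b0 ∈ {b | e b ≠ 1}) h0) b21.symm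
  rw [Set.mem_smul_set_iff_inv_smul_mem] at hκ1 hκ2
  obtain ⟨τ, hτ⟩ := h.lift κ κ.2
  let e1 : B → Perm A := fun b => τ * e ((κ : Perm B)⁻¹ b) * τ⁻¹
  have he1 : lp e1 ∈ G := by
    have : lp e1 = pc τ κ * lp e * (pc τ κ)⁻¹ := by
      ext ⟨a, b⟩ : 1
      simp [e1, pc_inv]
    rw [this]
    exact mul_mem (mul_mem hτ he) (inv_mem hτ)
  have h11 : e1 b1 ≠ 1 := by
    intro hh
    apply hκ1
    have : e ((κ : Perm B)⁻¹ b1) = τ⁻¹ * e1 b1 * τ := by simp only [e1]; group
    rw [hh, mul_one, inv_mul_cancel] at this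
    exact this
  have h12 : e1 b2 = 1 := by
    have : e ((κ : Perm B)⁻¹ b2) = 1 := by
      by_contra hh
      exact hκ2 hh
    simp only [e1, this, mul_one, mul_inv_cancel]
  obtain ⟨σ, hσ, hn'⟩ := exists_noncomm h.h5 h11
  obtain ⟨e2, he2, h21, h22⟩ := key b1 h1 σ hσ.mem_alternatingGroup
  have h3 := ih _ ?_ ⁅e2, e1⁆ (by
      rw [map_commutatorElement, commutatorElement_def]
      exact mul_mem (mul_mem (mul_mem he2 he1) (inv_mem he2)) (inv_mem he1))
    rfl b2 b1 (by simp [commutatorElement_def, h12])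
  · apply hn'
    rw [← commutatorElement_eq_one_iff_mul_comm, ← h22]
    exact h3
  · rw [← hn]
    apply Finset.card_lt_card
    rw [Finset.ssubset_iff_of_subset]
    · exact ⟨b2, by simpa using hb2, by simp [commutatorElement_def, h12]⟩
    · intro b hb
      simp only [Finset.mem_filter, Finset.mem_univ, true_and] at hb ⊢
      intro hh
      apply hb
      simp [commutatorElement_def, h21 b hh]

/-- Line-preserving elements are diagonal. -/
theorem Fr.diag (h : Fr G W) {g : Perm (A × B)} (hg : g ∈ G) (hl : ∀ a b, (g (a, b)).2 = b) :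
    ∃ τ : Perm A, g = pc τ 1 := by
  let e : B → Perm A := fun b => Equiv.ofBijective (fun a => (g (a, b)).1)
    (Finite.injective_iff_bijective.1 fun a a' hh =>
      congrArg Prod.fst (g.injective (Prod.ext hh (by rw [hl, hl]))))
  have hge : g = lp e := by
    ext ⟨a, b⟩ : 1
    exact Prod.ext rfl (hl a b)
  have := h.prim
  rcases isEmpty_or_nonempty B with hB | ⟨⟨b0⟩⟩
  · exact ⟨1, Equiv.ext fun x => hB.elim x.2⟩
  refine ⟨e b0, ?_⟩
  suffices hs : ∀ b, e b = e b0 by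
    rw [hge]
    ext ⟨a, b⟩ : 1
    simp [hs b]
  intro b1
  by_contra hne
  obtain ⟨σ, hσ, hn⟩ := exists_noncomm h.h5 (k := (e b0)⁻¹ * e b1)
    (fun hh => hne (inv_mul_eq_one.1 hh).symm)
  have hσ' : e b0 * σ * (e b0)⁻¹ ∈ alternatingGroup A :=
    Subgroup.Normal.conj_mem inferInstance _ hσ.mem_alternatingGroup _
  have hm : lp (fun b => e b * σ * (e b)⁻¹ * (e b0 * σ * (e b0)⁻¹)⁻¹) ∈ G := by
    have := mul_mem (mul_mem (mul_mem hg (h.alt σ hσ.mem_alternatingGroup)) (inv_mem hg))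
      (h.alt _ (inv_mem hσ'))
    rw [hge, ← map_inv] at this
    exact this
  have := h.no_proper _ _ hm rfl b0 b1 (by simp)
  apply hn
  rw [mul_inv_eq_one] at this
  calc σ * ((e b0)⁻¹ * e b1) = (e b0)⁻¹ * (e b0 * σ * (e b0)⁻¹) * e b1 := by group
    _ = _ := by rw [← this]; group

/-- Conjugating a coordinate 3-cycle by an element that keeps its lines. -/
theorem Fr.conj_diag (h : Fr G W) {g : Perm (A × B)} (hg : g ∈ G) {a b c : A} (ab : a ≠ b)
    (ac : a ≠ c) (bc : b ≠ c) (ha : ∀ ω, (g (a, ω)).2 = ω) (hb : ∀ ω, (g (b, ω)).2 = ω)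
    (hc : ∀ ω, (g (c, ω)).2 = ω) : ∃ τ : Perm A, g * pc (c3 a b c) 1 * g⁻¹ = pc τ 1 := by
  refine h.diag (mul_mem (mul_mem hg (h.alt _ (c3_alt ab ac bc))) (inv_mem hg)) fun x ω => ?_
  obtain ⟨⟨y, ω'⟩, hy⟩ := g.surjective (x, ω)
  rw [mul_apply, mul_apply, inv_apply_of hy, pc_apply, one_apply]
  have e2 : ω = (g (y, ω')).2 := by rw [hy]
  by_cases ya : y = a
  · subst ya; rw [c3_a ab ac, hb, e2, ha]
  by_cases yb : y = b
  · subst yb; rw [c3_b ac bc, hc, e2, hb]
  by_cases yc : y = c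
  · subst yc; rw [c3_c, ha, e2, hc]
  rw [c3_o ya yb yc, hy]

end Prd

end Cfsg.Lib.PAct
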