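import Cfsg.Agent.Prod.A

/-!
Overgroups of product-action wreath products, part B: elements supported on few hyperplanes.
-/

set_option autoImplicit false

namespace Cfsg.Lib.PAct

open Equiv Equiv.Perm MulAction
open scoped commutatorElement Pointwise

variable {A B : Type*} [Fintype A] [DecidableEq A] [Fintype B] [DecidableEq B]

/-- The full hypotheses. -/
structure Fr2 (G : Subgroup (Perm (A × B))) (W : Subgroup (Perm B)) : Prop extends Fr G W where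
  nrm : ∃ x y : Perm B, ⁅x, y⁆ ≠ 1 ∧ (∀ L : Subgroup (Perm B),
    (∀ w ∈ W, ∀ l ∈ L, w * l * w⁻¹ ∈ L) → L ≠ ⊥ → x ∈ L ∧ y ∈ L) ∧ ∀ c, on c ⁅x, y⁆ ∉ G
  odd : ∀ b, ∃ w ∈ W, w b = b ∧ ∃ τ : Perm A, sign τ = -1 ∧ pc τ w ∈ G
  three : Fintype.card A = 5 → ¬ 3 ∣ Fintype.card B

/-- `r` is supported on the hyperplanes `c`, `d` and induces `ρ` on `c`. -/
def Two (c d : A) (r : Perm (A × B)) (ρ : Perm B) : Prop :=
  (∀ x, x ≠ c → x ≠ d → ∀ b, r (x, b) = (x, b)) ∧ ∀ b, r (c, b) = (c, ρ b)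

omit [Fintype A] [DecidableEq A] [Fintype B] [DecidableEq B] in
theorem Two.inv {c d : A} {r : Perm (A × B)} {ρ : Perm B} (h : Two c d r ρ) :
    Two c d r⁻¹ ρ⁻¹ :=
  ⟨fun x h1 h2 b => inv_apply_of (h.1 x h1 h2 b), fun b => inv_apply_of (by rw [h.2]; simp)⟩

omit [Fintype A] [DecidableEq A] [Fintype B] [DecidableEq B] in
theorem Two.pres {c d : A} {r : Perm (A × B)} {ρ : Perm B} (h : Two c d r ρ) (z : A) (b : B) :
    ∃ b', r (z, b) = (z, b') := by
  by_cases zc : z = c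
  · subst zc; exact ⟨_, h.2 b⟩
  by_cases zd : z = d
  swap
  · exact ⟨b, h.1 z zc zd b⟩
  subst zd
  obtain ⟨⟨x, b'⟩, hx⟩ : ∃ p, r (z, b) = p := ⟨_, rfl⟩
  by_cases xc : x = c
  · subst xc
    have := h.inv.2 b'
    rw [inv_apply_of hx] at this
    exact absurd (congrArg Prod.fst this) zc
  by_cases xd : x = z
  · subst xd; exact ⟨b', hx⟩
  have := r.injective (hx.trans (h.1 x xc xd b').symm)
  exact absurd (congrArg Prod.fst this).symm xd

omit [Fintype A] [Fintype B] [DecidableEq B] in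
theorem Two.comm {c d e : A} (de : d ≠ e) {r s : Perm (A × B)} {x y : Perm B}
    (hr : Two c d r x) (hs : Two c e s y) : ⁅r, s⁆ = on c ⁅x, y⁆ := by
  ext ⟨z, b⟩ : 1
  simp only [commutatorElement_def, mul_apply]
  by_cases zc : z = c
  · subst zc
    rw [on_same, hs.inv.2, hr.inv.2, hs.2, hr.2]
    rfl
  rw [on_ne zc]
  by_cases zd : z = d
  · subst zd
    obtain ⟨b', hb'⟩ := hr.inv.pres z b
    rw [hs.inv.1 z zc de, hb', hs.1 z zc de, ← hb']
    simp
  · obtain ⟨b', hb'⟩ := hs.inv.pres z b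
    have e : s (z, b') = (z, b) := by rw [← hb']; simp
    rw [hb', hr.inv.1 z zc zd, e, hr.1 z zc zd]

variable {G : Subgroup (Perm (A × B))} {W : Subgroup (Perm B)}

/-- An element supported on two hyperplanes and keeping one of them fixes it. -/
theorem Fr2.two (h : Fr2 G W) {r : Perm (A × B)} (hr : r ∈ G) {c d : A} (cd : c ≠ d)
    (h1 : ∀ x, x ≠ c → x ≠ d → ∀ b, r (x, b) = (x, b)) (h2 : ∀ b, (r (c, b)).1 = c) (b : B) :
    r (c, b) = (c, b) := by
  let L : Subgroup (Perm B) :=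
    { carrier := {ρ | ∃ r ∈ G, Two c d r ρ}
      one_mem' := ⟨1, one_mem _, fun _ _ _ _ => rfl, fun _ => rfl⟩
      mul_mem' := by
        rintro _ _ ⟨x, hx, hx1⟩ ⟨y, hy, hy1⟩
        exact ⟨x * y, mul_mem hx hy, fun z h1 h2 b => by
          rw [mul_apply, hy1.1 z h1 h2, hx1.1 z h1 h2], fun b => by
          rw [mul_apply, hy1.2, hx1.2, mul_apply]⟩
      inv_mem' := by
        rintro _ ⟨x, hx, hx1⟩
        exact ⟨x⁻¹, inv_mem hx, hx1.inv⟩ }
  obtain ⟨x, y, -, hL, hon⟩ := h.nrm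
  let ρ : Perm B := Equiv.ofBijective (fun b => (r (c, b)).2)
    (Finite.injective_iff_bijective.1 fun a a' hh =>
      congrArg Prod.snd (r.injective (Prod.ext (by rw [h2, h2]) hh)))
  have hρ : Two c d r ρ := ⟨h1, fun b => Prod.ext (h2 b) rfl⟩
  by_cases hb : L = ⊥
  · have : ρ ∈ L := ⟨r, hr, hρ⟩
    rw [hb, Subgroup.mem_bot] at this
    rw [hρ.2, this]; rfl
  exfalso
  obtain ⟨⟨r1, hr1, ht1⟩, ⟨r2, hr2, ht2⟩⟩ := hL L (by
    rintro w hw _ ⟨s, hs, ht⟩
    obtain ⟨τ, t1, t2, -, hτ⟩ := h.lift3 hw c d d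
    refine ⟨pc τ w * s * (pc τ w)⁻¹, mul_mem (mul_mem hτ hs) (inv_mem hτ), fun z z1 z2 b => ?_,
      fun b => ?_⟩
    · rw [pc_inv, mul_apply, mul_apply, pc_apply _ _ z b, ht.1, pc_apply]
      · simp
      · intro hh; apply z1; rw [← t1, ← hh]; simp
      · intro hh; apply z2; rw [← t2, ← hh]; simp
    · rw [pc_inv, mul_apply, mul_apply, pc_apply _ _ c b, inv_apply_of t1, ht.2, pc_apply, t1]
      rfl) hb
  obtain ⟨e, ec, ed, -⟩ := fresh h.h5 c d d d
  obtain ⟨f, fc, fd, fe, -⟩ := fresh h.h5 c d e e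
  have hS := h.alt _ (c3_alt ed.symm fd.symm fe.symm)
  have hc : c3 d e f c = c := c3_o cd ec.symm fc.symm
  have ht3 : Two c e (pc (c3 d e f) 1 * r2 * (pc (c3 d e f) 1)⁻¹) y := by
    refine ⟨fun z z1 z2 b => ?_, fun b => ?_⟩
    · rw [pc_inv, mul_apply, mul_apply, pc_apply _ _ z b, ht2.1, pc_apply]
      · simp
      · intro hh; rw [Perm.inv_eq_iff_eq, hc] at hh; exact z1 hh
      · intro hh; rw [Perm.inv_eq_iff_eq, c3_a ed.symm fd.symm] at hh; exact z2 hh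
    · rw [pc_inv, mul_apply, mul_apply, pc_apply _ _ c b, inv_apply_of hc, ht2.2, pc_apply, hc]
      rfl
  apply hon c
  rw [← ht1.comm ed.symm ht3, commutatorElement_def]
  have h3 := mul_mem (mul_mem hS hr2) (inv_mem hS)
  exact mul_mem (mul_mem (mul_mem hr1 h3) (inv_mem hr1)) (inv_mem h3)

/-- An element fixing three hyperplanes pointwise is a coordinate permutation. -/
theorem Fr2.slab (h : Fr2 G W) {u : Perm (A × B)} (hu : u ∈ G) {p q r : A} (pq : p ≠ q)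
    (pr : p ≠ r) (qr : q ≠ r) (hp : ∀ b, u (p, b) = (p, b)) (hq : ∀ b, u (q, b) = (q, b))
    (hr : ∀ b, u (r, b) = (r, b)) : ∃ τ : Perm A, u = pc τ 1 := by
  refine h.diag hu fun f ω0 => ?_
  by_cases fp : f = p
  · rw [fp, hp]
  by_cases fq : f = q
  · rw [fq, hq]
  by_cases fr : f = r
  · rw [fr, hr]
  have nf : ∀ x, (∀ b, u (x, b) = (x, b)) → f ≠ x → ∀ ω ω', u (f, ω) ≠ (x, ω') :=
    fun x hx fx ω ω' hh => fx (congrArg Prod.fst (u.injective (hh.trans (hx ω').symm)))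
  obtain ⟨⟨c, ω1⟩, hc⟩ : ∃ z, u (f, ω0) = z := ⟨_, rfl⟩
  have cp : c ≠ p := fun hh => nf p hp fp ω0 ω1 (hh ▸ hc)
  have cq : c ≠ q := fun hh => nf q hq fq ω0 ω1 (hh ▸ hc)
  have cr : c ≠ r := fun hh => nf r hr fr ω0 ω1 (hh ▸ hc)
  obtain ⟨T, hT⟩ : ∃ T, T = u * pc (c3 q r f) 1 * u⁻¹ := ⟨_, rfl⟩
  have hTG : T ∈ G := hT ▸
    mul_mem (mul_mem hu (h.alt _ (c3_alt qr (Ne.symm fq) (Ne.symm fr)))) (inv_mem hu)
  have Tu : ∀ x ω, T (u (x, ω)) = u (c3 q r f x, ω) := by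
    intro x ω; rw [hT]; simp
  have Tq : ∀ ω, T (q, ω) = (r, ω) := fun ω => by
    rw [← hq, Tu, c3_a qr (Ne.symm fq), hr]
  have Tr : ∀ ω, T (r, ω) = u (f, ω) := fun ω => by
    rw [← hr, Tu, c3_b (Ne.symm fq) (Ne.symm fr)]
  have Tf : ∀ ω, T (u (f, ω)) = (q, ω) := fun ω => by rw [Tu, c3_c, hq]
  have To : ∀ x ω, x ≠ q → x ≠ r → (∀ ω', u (f, ω') ≠ (x, ω)) → T (x, ω) = (x, ω) := by
    intro x ω xq xr hx
    obtain ⟨⟨y, ω'⟩, hy⟩ := u.surjective (x, ω)
    rw [← hy, Tu, c3_o]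
    · rintro rfl; rw [hq] at hy; exact xq (congrArg Prod.fst hy).symm
    · rintro rfl; rw [hr] at hy; exact xr (congrArg Prod.fst hy).symm
    · rintro rfl; exact hx ω' hy
  by_cases hA : ∀ ω, (u (f, ω)).1 = c
  · have hS := h.alt _ (c3_alt qr cq.symm cr.symm)
    have e1 : ∀ ω, ((pc (c3 q r c) (1 : Perm B))⁻¹ * T) (r, ω) = (r, (u (f, ω)).2) := by
      intro ω
      rw [mul_apply, Tr]
      apply inv_apply_of
      rw [pc_apply, c3_b cq.symm cr.symm]
      exact Prod.ext (hA ω).symm rfl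
    have := h.two (mul_mem (inv_mem hS) hTG) cr.symm ?_ (fun b => by rw [e1]) ω0
    · rw [e1] at this
      exact congrArg Prod.snd this
    · intro x xr xc b
      rw [mul_apply]
      apply inv_apply_of
      by_cases xq : x = q
      · rw [xq, Tq, pc_apply, c3_a qr cq.symm]; rfl
      · rw [To x b xq xr fun ω' hh => xc (by rw [← hA ω', hh]), pc_apply, c3_o xq xr xc]; rfl
  exfalso
  push Not at hA
  obtain ⟨ω2, h2⟩ := hA
  obtain ⟨ω3, h3⟩ : ∃ ω3, ∀ ω, u (f, ω) ≠ (c, ω3) := by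
    by_contra hh
    push Not at hh
    choose η hη using hh
    have hi : Function.Injective η := fun a a' e =>
      congrArg Prod.snd ((hη a).symm.trans (e ▸ hη a'))
    obtain ⟨a, rfl⟩ := Finite.injective_iff_surjective.1 hi ω2
    exact h2 (by rw [hη])
  obtain ⟨σ, hσ⟩ : ∃ σ, σ = swap c p * swap q r := ⟨_, rfl⟩
  have hσa : σ ∈ alternatingGroup A := by
    rw [mem_alternatingGroup, hσ, map_mul, sign_swap cp, sign_swap qr]; simp
  have σc : σ c = p := by rw [hσ, mul_apply, swap_apply_of_ne_of_ne cq cr, swap_apply_left]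
  have σp : σ p = c := by rw [hσ, mul_apply, swap_apply_of_ne_of_ne pq pr, swap_apply_right]
  have σq : σ q = r := by
    rw [hσ, mul_apply, swap_apply_left, swap_apply_of_ne_of_ne cr.symm pr.symm]
  have σr : σ r = q := by
    rw [hσ, mul_apply, swap_apply_right, swap_apply_of_ne_of_ne cq.symm pq.symm]
  obtain ⟨x, xc, xp, xq, xr⟩ := fresh h.h5 c p q r
  have σx : σ x = x := by
    rw [hσ, mul_apply, swap_apply_of_ne_of_ne xq xr, swap_apply_of_ne_of_ne xc xp]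
  have hS := h.alt _ hσa
  obtain ⟨w, hw⟩ : ∃ w, w = pc σ 1 * T * pc σ 1 * T := ⟨_, rfl⟩
  have hwG : w ∈ G := hw ▸ mul_mem (mul_mem (mul_mem hS hTG) hS) hTG
  have wa : ∀ z, w z = pc σ 1 (T (pc σ 1 (T z))) := fun z => by rw [hw]; rfl
  have w1 : ∀ y ω ω', u (f, ω') = (y, ω) → w (y, ω) = (σ y, ω) := by
    intro y ω ω' hh
    rw [wa, ← hh, Tf, pc_apply _ _ q ω', σq, Tr, one_apply, hh, pc_apply, one_apply]
  have w2 : ∀ ω, (∀ ω', u (f, ω') ≠ (c, ω)) → w (c, ω) = (c, ω) := by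
    intro ω hh
    rw [wa, To c ω cq cr hh, pc_apply _ _ c ω, σc, one_apply, To p ω pq pr fun ω' => nf p hp fp ω' ω,
      pc_apply, σp, one_apply]
  have wq : ∀ ω, w (q, ω) = (q, ω) := by
    intro ω
    rw [wa, Tq, pc_apply _ _ r ω, σr, one_apply, Tq, pc_apply, σr, one_apply]
  have wx : ∀ ω, w (x, ω) = (x, ω) := by
    intro ω
    by_cases hh : ∀ ω', u (f, ω') ≠ (x, ω)
    · rw [wa, To x ω xq xr hh, pc_apply _ _ x ω, σx, one_apply, To x ω xq xr hh, pc_apply, σx,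
        one_apply]
    · push Not at hh
      obtain ⟨ω', hh⟩ := hh
      rw [w1 x ω ω' hh, σx]
  obtain ⟨τ, hτ⟩ := h.conj_diag hwG xc xq cq (fun ω => by rw [wx]) (fun ω => by
    by_cases hh : ∀ ω', u (f, ω') ≠ (c, ω)
    · rw [w2 ω hh]
    · push Not at hh
      obtain ⟨ω', hh⟩ := hh
      rw [w1 c ω ω' hh]) (fun ω => by rw [wq])
  have ev : ∀ ω, w (c, ω) = (τ x, ω) := by
    intro ω
    have := congrArg (fun g : Perm (A × B) => g (x, ω)) hτ
    simp only [mul_apply] at this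
    rwa [inv_apply_of (wx ω), pc_apply _ _ x ω, c3_a xc xq, one_apply, pc_apply, one_apply] at this
  have e1 := ev ω1
  have e3 := ev ω3
  rw [w1 c ω1 ω0 hc, σc] at e1
  rw [w2 ω3 h3] at e3
  exact cp ((congrArg Prod.fst e3).trans (congrArg Prod.fst e1).symm)

/-- An element centralising the coordinate 3-cycles that fix `c` centralises the coordinate
group. -/
theorem Fr2.comm_all (h : Fr2 G W) {g : Perm (A × B)} (hg : g ∈ G) (c : A)
    (hc : ∀ σ : Perm A, σ.IsThreeCycle → σ c = c → g * pc σ 1 = pc σ 1 * g) (σ : Perm A) :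
    g * pc σ 1 = pc σ 1 * g := by
  have ev : ∀ a b d : A, a ≠ b → a ≠ d → b ≠ d → c ≠ a → c ≠ b → c ≠ d → ∀ x ω,
      g (c3 a b d x, ω) = (c3 a b d (g (x, ω)).1, (g (x, ω)).2) := by
    intro a b d ab ad bd ca cb cd x ω
    exact congrArg (fun k : Perm (A × B) => k (x, ω)) (hc _ (c3_three ab ad bd) (c3_o ca cb cd))
  have pres : ∀ x ω, (g (x, ω)).1 = x := by
    intro x ω
    by_contra hne
    by_cases h1 : (g (x, ω)).1 = c
    · have xc : x ≠ c := fun hh => hne (h1.trans hh.symm)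
      obtain ⟨y, yc, yx, -⟩ := fresh h.h5 c x x x
      obtain ⟨z, zc, zx, zy, -⟩ := fresh h.h5 c x y y
      have := ev x y z yx.symm zx.symm zy.symm xc.symm yc.symm zc.symm x ω
      rw [h1, c3_o xc.symm yc.symm zc.symm, c3_a yx.symm zx.symm, ← h1] at this
      exact yx (congrArg Prod.fst (g.injective this))
    · obtain ⟨y, yc, yx, yg, -⟩ := fresh h.h5 c x (g (x, ω)).1 x
      obtain ⟨z, zc, zx, zg, zy⟩ := fresh h.h5 c x (g (x, ω)).1 y
      have := ev _ y z yg.symm zg.symm zy.symm (Ne.symm h1) yc.symm zc.symm x ω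
      rw [c3_o (Ne.symm hne) yx.symm zx.symm, c3_a yg.symm zg.symm] at this
      exact yg (congrArg Prod.fst this).symm
  have same : ∀ x y ω, x ≠ c → y ≠ c → (g (x, ω)).2 = (g (y, ω)).2 := by
    intro x y ω xc yc
    by_cases xy : x = y
    · rw [xy]
    obtain ⟨z, zc, zx, zy, -⟩ := fresh h.h5 c x y y
    have := ev x y z xy zx.symm zy.symm xc.symm yc.symm zc.symm x ω
    rw [c3_a xy zx.symm] at this
    rw [this]
  obtain ⟨x, xc, -⟩ := fresh h.h5 c c c c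
  obtain ⟨y, yc, yx, -⟩ := fresh h.h5 c x x x
  have hS := h.alt _ (c3_alt xc.symm yc.symm yx.symm)
  have cj : ∀ z ω, (pc (c3 c x y) (1 : Perm B) * g * (pc (c3 c x y) (1 : Perm B))⁻¹) (z, ω) =
      (z, (g ((c3 c x y)⁻¹ z, ω)).2) := by
    intro z ω
    rw [pc_inv, mul_apply, mul_apply, pc_apply _ _ z ω, inv_one, one_apply,
      ← Prod.mk.eta (p := g ((c3 c x y)⁻¹ z, ω)), pc_apply, pres]
    simp
  have key : ∀ z ω, z ≠ c → (c3 c x y)⁻¹ z ≠ c →
      (g⁻¹ * (pc (c3 c x y) (1 : Perm B) * g * (pc (c3 c x y) (1 : Perm B))⁻¹)) (z, ω) = (z, ω) := by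
    intro z ω h1 h2
    rw [mul_apply, cj]
    apply inv_apply_of
    exact Prod.ext (pres z ω) (same _ _ ω h1 h2)
  have two := h.two (mul_mem (inv_mem hg) (mul_mem (mul_mem hS hg) (inv_mem hS))) xc.symm
    (fun z zc zx ω => key z ω zc fun hh => zx (by
      rwa [Perm.inv_eq_iff_eq, c3_a xc.symm yc.symm] at hh)) (fun ω => by
      rw [mul_apply, cj]
      obtain ⟨⟨z, ω'⟩, hz⟩ := g.surjective (c, (g ((c3 c x y)⁻¹ c, ω)).2)
      rw [inv_apply_of hz, ← pres z ω', hz])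
  have same' : ∀ z ω, (g (z, ω)).2 = (g (y, ω)).2 := by
    intro z ω
    by_cases zc : z = c
    · have := two ω
      rw [mul_apply, cj, inv_apply_of (c3_c c x y), Perm.inv_eq_iff_eq] at this
      rw [zc, ← this]
    · exact same z y ω zc yc
  ext ⟨z, ω⟩ : 1
  rw [mul_apply, mul_apply, pc_apply _ _ z ω, one_apply, ← Prod.mk.eta (p := g (z, ω)), pc_apply, pres,
    one_apply]
  exact Prod.ext (pres _ _) ((same' _ _).trans (same' _ _).symm)

end Cfsg.Lib.PAct
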