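import Cfsg.Agent.Prod.B

/-!
Overgroups of product-action wreath products, part C: the centraliser of a coordinate 3-cycle.
-/

set_option autoImplicit false

namespace Cfsg.Lib.PAct

open Equiv Equiv.Perm MulAction
open scoped commutatorElement Pointwise

theorem mv_of_comm {A : Type*} {σ s : Perm A} (h : s * σ = σ * s) {x : A} (hx : σ x ≠ x) :
    σ (s x) ≠ s x := by
  intro hh
  rw [← mul_apply, ← h, mul_apply] at hh
  exact hx (s.injective hh)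

theorem zp_comm {A : Type*} {σ s : Perm A} (h : s ∈ Subgroup.zpowers σ) : s * σ = σ * s := by
  obtain ⟨k, rfl⟩ := h
  exact (Commute.zpow_self σ k).eq

theorem fx_of_fix {A : Type*} {σ τ : Perm A} (h : ∀ x, σ x ≠ x → τ x = x) {x : A}
    (hx : σ x = x) : σ (τ x) = τ x := by
  by_contra hh
  have := τ.injective (h _ hh)
  exact hh (by rw [this, hx])

/-- On the line `ω`, `d` acts on the moved points of `σ` as `s`. -/
def At {A B : Type*} (σ : Perm A) (d : Perm (A × B)) (ω : B) (s : Perm A) : Prop :=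
  s ∈ Subgroup.zpowers σ ∧ ∀ x, σ x ≠ x → d (x, ω) = (s x, ω)

theorem At.mul {A B : Type*} {σ : Perm A} {d d' : Perm (A × B)} {ω : B} {s s' : Perm A}
    (h : At σ d ω s) (h' : At σ d' ω s') : At σ (d * d') ω (s * s') :=
  ⟨mul_mem h.1 h'.1, fun x hx => by
    rw [mul_apply, h'.2 x hx, h.2 _ (mv_of_comm (zp_comm h'.1) hx), mul_apply]⟩

theorem At.inv {A B : Type*} {σ : Perm A} {d : Perm (A × B)} {ω : B} {s : Perm A}
    (h : At σ d ω s) : At σ d⁻¹ ω s⁻¹ :=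
  ⟨inv_mem h.1, fun x hx => inv_apply_of (by
    rw [h.2 _ (mv_of_comm (zp_comm (inv_mem h.1)) hx)]; simp)⟩

/-- The kernel of the action of the centraliser on the cycles. -/
def DD {A B : Type*} (G : Subgroup (Perm (A × B))) (σ : Perm A) : Subgroup (Perm (A × B)) where
  carrier := {d | d ∈ G ∧ ∀ ω, ∃ s, At σ d ω s}
  one_mem' := ⟨one_mem _, fun _ => ⟨1, one_mem _, fun _ _ => rfl⟩⟩
  mul_mem' := by
    rintro x y ⟨hx, hx1⟩ ⟨hy, hy1⟩
    refine ⟨mul_mem hx hy, fun ω => ?_⟩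
    obtain ⟨s, hs⟩ := hx1 ω
    obtain ⟨s', hs'⟩ := hy1 ω
    exact ⟨_, hs.mul hs'⟩
  inv_mem' := by
    rintro x ⟨hx, hx1⟩
    refine ⟨inv_mem hx, fun ω => ?_⟩
    obtain ⟨s, hs⟩ := hx1 ω
    exact ⟨_, hs.inv⟩

theorem DD.fx {A B : Type*} {G : Subgroup (Perm (A × B))} {σ : Perm A} {d : Perm (A × B)}
    (hd : d ∈ DD G σ) {x : A} (hx : σ x = x) (ω : B) : σ (d (x, ω)).1 = (d (x, ω)).1 := by
  by_contra hh
  obtain ⟨s, hs⟩ := ((DD G σ).inv_mem hd).2 (d (x, ω)).2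
  have e := hs.2 _ hh
  rw [Prod.mk.eta, inv_apply_of rfl] at e
  have := mv_of_comm (zp_comm hs.1) hh
  rw [← show x = s (d (x, ω)).1 from congrArg Prod.fst e] at this
  exact this hx

theorem DD.conj {A B : Type*} {G : Subgroup (Perm (A × B))} {σ : Perm A} {d : Perm (A × B)}
    (hd : d ∈ DD G σ) {τ : Perm A} {w : Perm B} (hτ : ∀ x, σ x ≠ x → τ x = x)
    (hn : pc τ w ∈ G) : pc τ w * d * (pc τ w)⁻¹ ∈ DD G σ := by
  refine ⟨mul_mem (mul_mem hn hd.1) (inv_mem hn), fun ω => ?_⟩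
  obtain ⟨s, hs⟩ := hd.2 (w⁻¹ ω)
  refine ⟨s, hs.1, fun x hx => ?_⟩
  rw [pc_inv, mul_apply, mul_apply, pc_apply _ _ x ω, inv_apply_of (hτ x hx), hs.2 x hx,
    pc_apply, hτ _ (mv_of_comm (zp_comm hs.1) hx)]
  simp

variable {A B : Type*} [Fintype A] [DecidableEq A] [Fintype B] [DecidableEq B]
variable {G : Subgroup (Perm (A × B))} {W : Subgroup (Perm B)}

omit [Fintype A] in
theorem c3_mv {a b c : A} (ab : a ≠ b) (ac : a ≠ c) (bc : b ≠ c) {x : A} :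
    c3 a b c x ≠ x ↔ x = a ∨ x = b ∨ x = c := by
  constructor
  · intro h
    by_contra hh
    push Not at hh
    exact h (c3_o hh.1 hh.2.1 hh.2.2)
  · rintro (rfl | rfl | rfl)
    · rw [c3_a ab ac]; exact ab.symm
    · rw [c3_b ac bc]; exact bc.symm
    · rw [c3_c]; exact ac

theorem Fr.liftV (h : Fr G W) {a b c : A} (ab : a ≠ b) (ac : a ≠ c) (bc : b ≠ c) {w : Perm B}
    (hw : w ∈ W) : ∃ τ : Perm A, (∀ x, c3 a b c x ≠ x → τ x = x) ∧ pc τ w ∈ G := by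
  obtain ⟨τ, h1, h2, h3, h4⟩ := h.lift3 hw a b c
  refine ⟨τ, fun x hx => ?_, h4⟩
  rcases (c3_mv ab ac bc).1 hx with rfl | rfl | rfl <;> assumption

theorem Fr2.fixV (h : Fr2 G W) {a b c : A} (ab : a ≠ b) (ac : a ≠ c) (bc : b ≠ c)
    {u : Perm (A × B)} (hu : u ∈ G) (h1 : ∀ x, c3 a b c x ≠ x → ∀ ω, u (x, ω) = (x, ω)) :
    ∃ τ : Perm A, u = pc τ 1 :=
  h.slab hu ab ac bc (h1 a ((c3_mv ab ac bc).2 (by simp))) (h1 b ((c3_mv ab ac bc).2 (by simp)))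
    (h1 c ((c3_mv ab ac bc).2 (by simp)))

theorem Fr2.dd_alpha (h : Fr2 G W) {a b c : A} (ab : a ≠ b) (ac : a ≠ c) (bc : b ≠ c)
    (hα : ∀ e e', c3 a b c e = e → c3 a b c e' = e' →
      ∃ τ : Perm A, pc τ 1 ∈ G ∧ (∀ x, c3 a b c x ≠ x → τ x = x) ∧ τ e = e')
    {d : Perm (A × B)} (hd : d ∈ DD G (c3 a b c)) {e : A} (he : c3 a b c e = e) (ω : B) :
    (d (e, ω)).2 = ω := by
  have hA : ∀ d ∈ DD G (c3 a b c), ∀ e e', c3 a b c e = e → c3 a b c e' = e' → ∀ ω,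
      (d (e', ω)).2 = (d (e, ω)).2 := by
    intro d hd e e' he he' ω
    obtain ⟨τ, hτ, h1, h2⟩ := hα e e' he he'
    obtain ⟨τ', h3⟩ := h.fixV ab ac bc (mul_mem (mul_mem hd.1 hτ) (inv_mem hd.1)) (by
      intro x hx ω
      obtain ⟨s, hs⟩ := ((DD G _).inv_mem hd).2 ω
      rw [mul_apply, mul_apply, hs.2 x hx, pc_apply, h1 _ (mv_of_comm (zp_comm hs.1) hx),
        one_apply, ← hs.2 x hx]
      simp)
    have := congrArg (fun k : Perm (A × B) => (k (d (e, ω))).2) h3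
    simp only [mul_apply, inv_apply_of (rfl : d (e, ω) = _), pc_apply, h2, one_apply] at this
    exact this
  let Rel : Perm (A × B) → Perm B → Prop := fun d ρ =>
    d ∈ DD G (c3 a b c) ∧ ∀ e, c3 a b c e = e → ∀ ω, (d (e, ω)).2 = ρ ω
  have rmul : ∀ {d d' ρ ρ'}, Rel d ρ → Rel d' ρ' → Rel (d * d') (ρ * ρ') := by
    intro d d' ρ ρ' h1 h2
    refine ⟨mul_mem h1.1 h2.1, fun e he ω => ?_⟩
    rw [mul_apply, ← Prod.mk.eta (p := d' (e, ω)), h1.2 _ (DD.fx h2.1 he ω), h2.2 e he, mul_apply]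
  have rinv : ∀ {d ρ}, Rel d ρ → Rel d⁻¹ ρ⁻¹ := by
    intro d ρ h1
    refine ⟨inv_mem h1.1, fun e he ω => ?_⟩
    have := h1.2 _ (DD.fx (inv_mem h1.1) he ω) (d⁻¹ (e, ω)).2
    rw [Prod.mk.eta] at this
    simp only [coe_inv, apply_symm_apply] at this
    rw [eq_comm, Perm.inv_eq_iff_eq]
    exact this
  let L : Subgroup (Perm B) :=
    { carrier := {ρ | ∃ d, Rel d ρ}
      one_mem' := ⟨1, one_mem _, fun _ _ _ => rfl⟩
      mul_mem' := by
        rintro _ _ ⟨x, hx⟩ ⟨y, hy⟩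
        exact ⟨_, rmul hx hy⟩
      inv_mem' := by
        rintro _ ⟨x, hx⟩
        exact ⟨_, rinv hx⟩ }
  let ρ : Perm B := Equiv.ofBijective (fun ω => (d (e, ω)).2)
    (Finite.injective_iff_bijective.1 fun ω1 ω2 hh => by
      have := hA _ (inv_mem hd) _ _ (DD.fx hd he ω1) (DD.fx hd he ω2) (d (e, ω1)).2
      rw [Prod.mk.eta, show (d (e, ω1)).2 = (d (e, ω2)).2 from hh, Prod.mk.eta] at this
      simpa using this.symm)
  have hρ : Rel d ρ := ⟨hd, fun e' he' ω => hA d hd e e' he he' ω⟩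
  by_cases hb : L = ⊥
  · have : ρ ∈ L := ⟨d, hρ⟩
    rw [hb, Subgroup.mem_bot] at this
    rw [hρ.2 e he, this]; rfl
  exfalso
  obtain ⟨x, y, hxy, hL, -⟩ := h.nrm
  obtain ⟨⟨d1, h1⟩, ⟨d2, h2⟩⟩ := hL L (by
    rintro w hw l ⟨s, hs⟩
    obtain ⟨τ, hτ, hn⟩ := h.liftV ab ac bc hw
    refine ⟨_, DD.conj hs.1 hτ hn, fun e he ω => ?_⟩
    rw [pc_inv, mul_apply, mul_apply, pc_apply _ _ e ω, ← Prod.mk.eta (p := s _), pc_apply,
      hs.2 _ (fx_of_fix (τ := τ⁻¹) (fun x hx => inv_apply_of (hτ x hx)) he)]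
    rfl) hb
  have h3 := rmul (rmul (rmul h1 h2) (rinv h1)) (rinv h2)
  obtain ⟨τ, hτ⟩ := h.fixV ab ac bc h3.1.1 (by
    intro z hz ω
    obtain ⟨s1, hs1⟩ := h1.1.2 ω
    obtain ⟨s2, hs2⟩ := h2.1.2 ω
    rw [(((hs1.mul hs2).mul hs1.inv).mul hs2.inv).2 z hz]
    obtain ⟨k, rfl⟩ := hs1.1
    obtain ⟨l, rfl⟩ := hs2.1
    have : c3 a b c ^ k * c3 a b c ^ l * (c3 a b c ^ k)⁻¹ * (c3 a b c ^ l)⁻¹ = 1 := by group
    simp only [this, one_apply])
  apply hxy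
  ext ω
  have := h3.2 e he ω
  rw [hτ] at this
  exact this.symm

theorem Fr2.dd_beta (h : Fr2 G W) {a b c : A} (ab : a ≠ b) (ac : a ≠ c) (bc : b ≠ c)
    {e e' : A} (he : c3 a b c e = e) (he' : c3 a b c e' = e')
    (hβ : ∀ τ : Perm A, pc τ 1 ∈ G → (∀ x, c3 a b c x ≠ x → τ x = x) → τ e ≠ e')
    {d : Perm (A × B)} (hd : d ∈ DD G (c3 a b c)) {x : A} (hx : c3 a b c x = x) (ω : B) :
    d (x, ω) = (x, ω) := by
  have ee : e ≠ e' := hβ 1 (h.alt 1 (one_mem _)) fun _ _ => rfl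
  have hF : ∀ x, c3 a b c x = x → x = e ∨ x = e' := by
    intro x hx
    by_contra hh
    push Not at hh
    refine hβ (c3 e e' x) (h.alt _ (c3_alt ee hh.1.symm hh.2.symm)) (fun y hy => c3_o ?_ ?_ ?_)
      (c3_a ee hh.1.symm) <;> rintro rfl <;> contradiction
  have hF' : ∀ x, c3 a b c x = x ↔ x = e ∨ x = e' :=
    fun x => ⟨hF x, by rintro (rfl | rfl) <;> assumption⟩
  have hc5 : Fintype.card A = 5 := by
    have : (Finset.univ : Finset A) ⊆ {a, b, c, e, e'} := by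
      intro x _
      by_cases hx : c3 a b c x = x
      · rcases hF x hx with rfl | rfl <;> simp
      · rcases (c3_mv ab ac bc).1 hx with rfl | rfl | rfl <;> simp
    have h1 := Finset.card_le_card this
    have h2 : ({a, b, c, e, e'} : Finset A).card ≤ 5 := Finset.card_le_five
    rw [Finset.card_univ] at h1
    have := h.h5
    omega
  have hD : IsPGroup 3 (DD G (c3 a b c)) := by
    intro g
    refine ⟨1, Subtype.ext ?_⟩
    have hg : (g : Perm (A × B)) ^ 3 = g * g * g := by simp [pow_succ]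
    rw [pow_one, Subgroup.coe_pow, hg]
    have hfix : ∀ z, c3 a b c z ≠ z → ∀ ω, ((g : Perm (A × B)) * g * g) (z, ω) = (z, ω) := by
      intro z hz ω
      obtain ⟨s, hs⟩ := g.2.2 ω
      rw [((hs.mul hs).mul hs).2 z hz]
      obtain ⟨k, rfl⟩ := hs.1
      have h3 : c3 a b c ^ 3 = 1 := by
        rw [← (c3_three ab ac bc).orderOf]; exact pow_orderOf_eq_one _
      have : c3 a b c ^ k * c3 a b c ^ k * c3 a b c ^ k = (c3 a b c ^ 3) ^ k := by group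
      simp only [this, h3, one_zpow, one_apply]
    have hm := mul_mem (mul_mem g.2.1 g.2.1) g.2.1
    obtain ⟨τ, hτ⟩ := h.fixV ab ac bc hm hfix
    rcases isEmpty_or_nonempty B with hB | ⟨⟨ω0⟩⟩
    · exact hB.elim ω
    have hV : ∀ z, c3 a b c z ≠ z → τ z = z := fun z hz => by
      have := hfix z hz ω0
      rw [hτ] at this
      exact congrArg Prod.fst this
    have t1 : τ e = e := ((hF _ (fx_of_fix hV he)).resolve_right (hβ τ (hτ ▸ hm) hV))
    have t2 : τ e' = e' := (hF _ (fx_of_fix hV he')).resolve_left fun hh =>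
      ee (τ.injective (t1.trans hh.symm))
    have : τ = 1 := by
      ext z
      by_cases hz : c3 a b c z = z
      · rcases hF z hz with rfl | rfl <;> assumption
      · exact hV z hz
    rw [hτ, this, pc_one]; rfl
  let Φ : SubMulAction (DD G (c3 a b c)) (A × B) :=
    { carrier := {z | c3 a b c z.1 = z.1}
      smul_mem' := fun g z hz => DD.fx g.2 hz z.2 }
  have hcard : Nat.card Φ = 2 * Fintype.card B := by
    have e1 : Φ ≃ ({e, e'} : Finset A) × B :=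
      { toFun := fun z => (⟨z.1.1, by simpa using hF _ z.2⟩, z.1.2)
        invFun := fun z => ⟨(z.1.1, z.2), (hF' _).2
          ((Finset.mem_insert.1 z.1.2).imp id Finset.mem_singleton.1)⟩
        left_inv := fun _ => rfl
        right_inv := fun _ => rfl }
    rw [Nat.card_congr e1, Nat.card_prod, Nat.card_eq_fintype_card, Fintype.card_coe,
      Finset.card_pair ee, Nat.card_eq_fintype_card]
  have : Fact (Nat.Prime 3) := ⟨Nat.prime_three⟩
  obtain ⟨⟨⟨x0, ω0⟩, hx0⟩, hz⟩ := hD.nonempty_fixed_point_of_prime_not_dvd_card Φ (by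
    rw [hcard]
    intro hh
    exact h.three hc5 ((Nat.Coprime.dvd_mul_left (by norm_num)).1 hh))
  have hz' : ∀ g ∈ DD G (c3 a b c), g (x0, ω0) = (x0, ω0) :=
    fun g hg => congrArg Subtype.val (hz ⟨g, hg⟩)
  have mv : ∀ (τ : Perm A) (w : Perm B), (∀ x, c3 a b c x ≠ x → τ x = x) → pc τ w ∈ G →
      d (τ x0, w ω0) = (τ x0, w ω0) := by
    intro τ w hτ hn
    have hn' : pc τ⁻¹ w⁻¹ ∈ G := inv_mem hn
    have := hz' _ (DD.conj hd (fun x hx => inv_apply_of (hτ x hx)) hn')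
    rw [pc_inv, inv_inv, inv_inv, mul_apply, mul_apply, ← pc_inv, Perm.inv_eq_iff_eq] at this
    exact this
  have := h.prim
  obtain ⟨w1, hw1⟩ := exists_smul_eq W ω0 ω
  obtain ⟨τ1, hτ1, hn1⟩ := h.liftV ab ac bc w1.2
  have hw1' : (w1 : Perm B) ω0 = ω := hw1
  by_cases hh : τ1 x0 = x
  · have := mv τ1 w1 hτ1 hn1
    rwa [hh, hw1'] at this
  obtain ⟨w2, hw2, hw2', τ2, hs, hn2⟩ := h.odd ω
  have hn3 : pc (swap e e') w2 ∈ G := by
    have := mul_mem (h.alt (swap e e' * τ2⁻¹) (by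
      rw [mem_alternatingGroup, map_mul, map_inv, hs, sign_swap ee]; simp)) hn2
    rwa [pc_mul, one_mul, inv_mul_cancel_right] at this
  have hn4 := mul_mem hn3 hn1
  rw [pc_mul] at hn4
  have := mv _ _ (fun z hz => by
    rw [mul_apply, hτ1 z hz, swap_apply_of_ne_of_ne] <;> rintro rfl <;> contradiction) hn4
  rw [mul_apply, mul_apply, hw1', hw2'] at this
  have e2 : swap e e' (τ1 x0) = x := by
    rcases hF _ (fx_of_fix hτ1 hx0) with h1 | h1 <;> rcases hF x hx with h2 | h2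
    · exact absurd (h1.trans h2.symm) hh
    · rw [h1, h2, swap_apply_left]
    · rw [h1, h2, swap_apply_right]
    · exact absurd (h1.trans h2.symm) hh
  rwa [e2] at this

theorem Fr2.dd (h : Fr2 G W) {a b c : A} (ab : a ≠ b) (ac : a ≠ c) (bc : b ≠ c)
    {d : Perm (A × B)} (hd : d ∈ DD G (c3 a b c)) : ∃ τ : Perm A, d = pc τ 1 := by
  refine h.diag hd.1 fun x ω => ?_
  by_cases hx : c3 a b c x = x
  swap
  · obtain ⟨s, hs⟩ := hd.2 ω
    rw [hs.2 x hx]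
  by_cases hα : ∀ e e', c3 a b c e = e → c3 a b c e' = e' →
      ∃ τ : Perm A, pc τ 1 ∈ G ∧ (∀ x, c3 a b c x ≠ x → τ x = x) ∧ τ e = e'
  · exact h.dd_alpha ab ac bc hα hd hx ω
  · push Not at hα
    obtain ⟨e, e', he, he', hβ⟩ := hα
    rw [h.dd_beta ab ac bc he he' hβ hd hx ω]

/-- `g` centralises the coordinate permutation `σ` and induces `ρ` on its cycles. -/
def Ind {A B : Type*} (σ : Perm A) (g : Perm (A × B)) (ρ : Perm B) : Prop :=
  g * pc σ 1 = pc σ 1 * g ∧ ∀ x, σ x ≠ x → ∀ ω, (g (x, ω)).2 = ρ ω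

theorem comm_ev {A B : Type*} {σ : Perm A} {g : Perm (A × B)} (h : g * pc σ 1 = pc σ 1 * g)
    (x : A) (ω : B) : g (σ x, ω) = (σ (g (x, ω)).1, (g (x, ω)).2) :=
  congrArg (fun k : Perm (A × B) => k (x, ω)) h

theorem comm_mv {A B : Type*} {σ : Perm A} {g : Perm (A × B)} (h : g * pc σ 1 = pc σ 1 * g)
    {x : A} (hx : σ x ≠ x) (ω : B) : σ (g (x, ω)).1 ≠ (g (x, ω)).1 := by
  intro hh
  have := comm_ev h x ω
  rw [hh] at this
  exact hx (congrArg Prod.fst (g.injective this))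

theorem comm_inv {X : Type*} [Group X] {g t : X} (h : g * t = t * g) : g⁻¹ * t = t * g⁻¹ :=
  (Commute.inv_left h).eq

theorem Ind.mul {A B : Type*} {σ : Perm A} {g g' : Perm (A × B)} {ρ ρ' : Perm B}
    (h : Ind σ g ρ) (h' : Ind σ g' ρ') : Ind σ (g * g') (ρ * ρ') :=
  ⟨(Commute.mul_left h.1 h'.1).eq, fun x hx ω => by
    rw [mul_apply, ← Prod.mk.eta (p := g' (x, ω)), h.2 _ (comm_mv h'.1 hx ω), h'.2 x hx,
      mul_apply]⟩

theorem Ind.inv {A B : Type*} {σ : Perm A} {g : Perm (A × B)} {ρ : Perm B}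
    (h : Ind σ g ρ) : Ind σ g⁻¹ ρ⁻¹ := by
  refine ⟨comm_inv h.1, fun x hx ω => ?_⟩
  have := h.2 _ (comm_mv (comm_inv h.1) hx ω) (g⁻¹ (x, ω)).2
  rw [Prod.mk.eta] at this
  simp only [coe_inv, apply_symm_apply] at this
  rw [eq_comm, Perm.inv_eq_iff_eq]
  exact this

omit [Fintype A] [DecidableEq B] in
theorem exists_ind {a b c : A} (ab : a ≠ b) (ac : a ≠ c) (bc : b ≠ c) {g : Perm (A × B)}
    (h : g * pc (c3 a b c) 1 = pc (c3 a b c) 1 * g) : ∃ ρ, Ind (c3 a b c) g ρ := by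
  have hA : ∀ g : Perm (A × B), g * pc (c3 a b c) 1 = pc (c3 a b c) 1 * g →
      ∀ x, c3 a b c x ≠ x → ∀ ω, (g (x, ω)).2 = (g (a, ω)).2 := by
    intro g h x hx ω
    have e1 := comm_ev h a ω
    have e2 := comm_ev h c ω
    rw [c3_a ab ac] at e1
    rw [c3_c] at e2
    rcases (c3_mv ab ac bc).1 hx with rfl | rfl | rfl
    · rfl
    · rw [e1]
    · rw [e2]
  have ha : c3 a b c a ≠ a := (c3_mv ab ac bc).2 (by simp)
  refine ⟨Equiv.ofBijective (fun ω => (g (a, ω)).2)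
    (Finite.injective_iff_bijective.1 fun ω1 ω2 hh => ?_), h, hA g h⟩
  have := (hA _ (comm_inv h) _ (comm_mv h ha ω1) (g (a, ω1)).2).trans
    (hA _ (comm_inv h) _ (comm_mv h ha ω2) (g (a, ω1)).2).symm
  rw [Prod.mk.eta, show (g (a, ω1)).2 = (g (a, ω2)).2 from hh, Prod.mk.eta] at this
  simpa using this

theorem Fr2.ind_one (h : Fr2 G W) {a b c : A} (ab : a ≠ b) (ac : a ≠ c) (bc : b ≠ c)
    {g : Perm (A × B)} (hg : g ∈ G) (hi : Ind (c3 a b c) g 1) : ∃ τ : Perm A, g = pc τ 1 := by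
  refine h.dd ab ac bc ⟨hg, fun ω => ?_⟩
  have ha : c3 a b c a ≠ a := (c3_mv ab ac bc).2 (by simp)
  obtain ⟨s, hs, hsa⟩ : ∃ s ∈ Subgroup.zpowers (c3 a b c), s a = (g (a, ω)).1 := by
    rcases (c3_mv ab ac bc).1 (comm_mv hi.1 ha ω) with e | e | e <;> rw [e]
    · exact ⟨1, one_mem _, rfl⟩
    · exact ⟨_, Subgroup.mem_zpowers _, c3_a ab ac⟩
    · exact ⟨_, inv_mem (Subgroup.mem_zpowers _), inv_apply_of (c3_c a b c)⟩
  have e0 : g (a, ω) = (s a, ω) := Prod.ext hsa.symm (hi.2 a ha ω)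
  have st : ∀ x, g (x, ω) = (s x, ω) → g (c3 a b c x, ω) = (s (c3 a b c x), ω) := by
    intro x hx
    rw [comm_ev hi.1, hx, ← mul_apply s, zp_comm hs, mul_apply]
  have e1 := st a e0
  rw [c3_a ab ac] at e1
  have e2 := st b e1
  rw [c3_b ac bc] at e2
  refine ⟨s, hs, fun x hx => ?_⟩
  rcases (c3_mv ab ac bc).1 hx with rfl | rfl | rfl <;> assumption

omit [Fintype A] [DecidableEq A] [Fintype B] [DecidableEq B] in
theorem ind_pc {σ τ : Perm A} (hτ : ∀ x, σ x ≠ x → τ x = x) (w : Perm B) :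
    Ind σ (pc τ w) w := by
  refine ⟨?_, fun _ _ _ => rfl⟩
  rw [pc_mul, pc_mul, one_mul, mul_one]
  congr 1
  ext x
  by_cases hx : σ x = x
  · rw [mul_apply, mul_apply, hx, fx_of_fix hτ hx]
  · rw [mul_apply, mul_apply, hτ x hx, hτ _ (mv_of_comm rfl hx)]

theorem Fr2.ind_W (h : Fr2 G W) {a b c : A} (ab : a ≠ b) (ac : a ≠ c) (bc : b ≠ c)
    {g : Perm (A × B)} (hg : g ∈ G) {ρ : Perm B} (hρ : ρ ∈ W) (hi : Ind (c3 a b c) g ρ) :
    ∃ τ : Perm A, g = pc τ ρ := by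
  obtain ⟨τ, hτ, hn⟩ := h.liftV ab ac bc hρ
  have := hi.mul (ind_pc hτ ρ).inv
  rw [mul_inv_cancel] at this
  obtain ⟨τ', h'⟩ := h.ind_one ab ac bc (mul_mem hg (inv_mem hn)) this
  refine ⟨τ' * τ, ?_⟩
  rw [mul_inv_eq_iff_eq_mul, pc_mul, one_mul] at h'
  exact h'

/-- The group induced on the cycles. -/
def Pi3 {A B : Type*} (G : Subgroup (Perm (A × B))) (σ : Perm A) : Subgroup (Perm B) where
  carrier := {ρ | ∃ g ∈ G, Ind σ g ρ}
  one_mem' := ⟨1, one_mem _, by simp, fun _ _ _ => rfl⟩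
  mul_mem' := by
    rintro _ _ ⟨x, hx, hx1⟩ ⟨y, hy, hy1⟩
    exact ⟨_, mul_mem hx hy, hx1.mul hy1⟩
  inv_mem' := by
    rintro _ ⟨x, hx, hx1⟩
    exact ⟨_, inv_mem hx, hx1.inv⟩

theorem Fr.le_Pi3 (h : Fr G W) {a b c : A} (ab : a ≠ b) (ac : a ≠ c) (bc : b ≠ c) :
    W ≤ Pi3 G (c3 a b c) := by
  intro w hw
  obtain ⟨τ, hτ, hn⟩ := h.liftV ab ac bc hw
  exact ⟨_, hn, ind_pc hτ w⟩

end Cfsg.Lib.PAct
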