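import Cfsg.Agent.Prod.A

/-!
Overgroups of product-action wreath products, part D: the wreath product itself.
-/

set_option autoImplicit false

namespace Cfsg.Lib.PAct

open Equiv Equiv.Perm MulAction
open scoped commutatorElement Pointwise

section Defs

variable {ι A : Type*}

/-- An element of the wreath product in product action. -/
def wr (π : Perm ι) (τ : ι → Perm A) : Perm (ι → A) where
  toFun f i := τ i (f (π.symm i))
  invFun f i := (τ (π i)).symm (f (π i))
  left_inv f := by ext i; simp
  right_inv f := by ext i; simp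

theorem wr_apply (π : Perm ι) (τ : ι → Perm A) (f : ι → A) (i : ι) :
    wr π τ f i = τ i (f (π.symm i)) := rfl

theorem wr1_apply (τ : ι → Perm A) (f : ι → A) (i : ι) : wr 1 τ f i = τ i (f i) := rfl

theorem wr1_mul (τ τ' : ι → Perm A) : wr 1 τ * wr 1 τ' = wr 1 (τ * τ') := Equiv.ext fun _ => rfl

theorem wr_mul (π π' : Perm ι) (τ τ' : ι → Perm A) :
    wr π τ * wr π' τ' = wr (π * π') fun i => τ i * τ' (π.symm i) := Equiv.ext fun _ => rfl

theorem wr_inv (π : Perm ι) (τ : ι → Perm A) :
    (wr π τ)⁻¹ = wr π⁻¹ fun i => (τ (π i))⁻¹ := Equiv.ext fun _ => rfl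

theorem wr_one : wr (1 : Perm ι) (1 : ι → Perm A) = 1 := Equiv.ext fun _ => rfl

variable (ι A) in
/-- The wreath product in product action. -/
def WW : Subgroup (Perm (ι → A)) where
  carrier := {σ | ∃ π τ, σ = wr π τ}
  one_mem' := ⟨1, 1, wr_one.symm⟩
  mul_mem' := by
    rintro _ _ ⟨π, τ, rfl⟩ ⟨π', τ', rfl⟩
    exact ⟨_, _, wr_mul ..⟩
  inv_mem' := by
    rintro _ ⟨π, τ, rfl⟩
    exact ⟨_, _, wr_inv ..⟩

theorem wr_mem (π : Perm ι) (τ : ι → Perm A) : wr π τ ∈ WW ι A := ⟨π, τ, rfl⟩

variable [DecidableEq ι]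

/-- A permutation of one coordinate. -/
def co (i : ι) : Perm A →* Perm (ι → A) where
  toFun σ := wr 1 (Pi.mulSingle i σ)
  map_one' := by rw [Pi.mulSingle_one, wr_one]
  map_mul' σ σ' := by rw [wr_mul, Pi.mulSingle_mul]; rfl

theorem co_eq (i : ι) (σ : Perm A) : co i σ = wr 1 (Pi.mulSingle i σ) := rfl

theorem co_mem (i : ι) (σ : Perm A) : co i σ ∈ WW ι A := wr_mem _ _

@[simp] theorem co_same (i : ι) (σ : Perm A) (f : ι → A) : co i σ f i = σ (f i) := by
  simp [co_eq, wr1_apply]

theorem co_ne {i j : ι} (h : j ≠ i) (σ : Perm A) (f : ι → A) : co i σ f j = f j := by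
  simp [co_eq, wr1_apply, Pi.mulSingle_eq_of_ne h]

theorem co_fix {i : ι} {σ : Perm A} {f : ι → A} : co i σ f = f ↔ σ (f i) = f i := by
  refine ⟨fun h => by rw [← co_same, h], fun h => funext fun j => ?_⟩
  by_cases hj : j = i
  · rw [hj, co_same, h]
  · exact co_ne hj σ f

theorem wr_conj_co (π : Perm ι) (τ : ι → Perm A) (j : ι) (σ : Perm A) :
    wr π τ * co j σ * (wr π τ)⁻¹ = co (π j) (τ (π j) * σ * (τ (π j))⁻¹) := by
  rw [mul_inv_eq_iff_eq_mul]
  ext f l
  by_cases h : l = π j
  · subst h
    rw [mul_apply, mul_apply, co_same, wr_apply, wr_apply, symm_apply_apply, co_same]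
    simp
  · rw [mul_apply, mul_apply, co_ne h, wr_apply, wr_apply, co_ne]
    rintro rfl
    simp at h

theorem co_eq_one {j : ι} {σ : Perm A} (h : co j σ = 1) : σ = 1 := by
  ext a
  have := congrArg (fun g : Perm (ι → A) => g (fun _ => a) j) h
  simpa using this

theorem co_comm {i j : ι} (h : i ≠ j) (σ σ' : Perm A) : co i σ * co j σ' = co j σ' * co i σ := by
  ext f l
  simp only [mul_apply]
  by_cases h1 : l = i
  · subst h1; rw [co_same, co_ne h, co_ne h, co_same]
  by_cases h2 : l = j
  · subst h2; rw [co_same, co_ne h1, co_ne h1, co_same]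
  rw [co_ne h1, co_ne h2, co_ne h2, co_ne h1]

theorem base_mem [Fintype ι] (K : Subgroup (Perm (ι → A))) (τ : ι → Perm A)
    (h : ∀ i, co i (τ i) ∈ K) : wr 1 τ ∈ K := by
  have key : ∀ s : Finset ι, wr 1 (fun i => if i ∈ s then τ i else 1) ∈ K := by
    intro s
    induction s using Finset.induction_on with
    | empty => exact (wr_one ▸ K.one_mem : wr 1 1 ∈ K)
    | insert a s ha ih =>
      have := K.mul_mem (h a) ih
      rw [co_eq, wr1_mul] at this
      convert this using 2
      ext i : 1
      by_cases hi : i = a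
      · subst hi; simp [ha]
      · simp [hi]
  simpa using key Finset.univ

/-- Two points that differ exactly in the coordinate `i`. -/
def AdjAt (i : ι) (x y : ι → A) : Prop := x i ≠ y i ∧ ∀ j, j ≠ i → x j = y j

omit [DecidableEq ι] in
theorem AdjAt.wr {i : ι} {x y : ι → A} (h : AdjAt i x y) (π : Perm ι) (τ : ι → Perm A) :
    AdjAt (π i) (wr π τ x) (wr π τ y) := by
  refine ⟨by simpa [wr_apply] using h.1, fun j hj => ?_⟩
  rw [wr_apply, wr_apply, h.2]
  rintro rfl
  simp at hj

/-- Adjacency in the Hamming graph. -/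
def Adj (x y : ι → A) : Prop := ∃ i, AdjAt i x y

omit [DecidableEq ι] in
theorem adj_iff_of_mem {w : Perm (ι → A)} (hw : w ∈ WW ι A) (x y : ι → A) :
    Adj (w x) (w y) ↔ Adj x y := by
  have key : ∀ w ∈ WW ι A, ∀ x y, Adj x y → Adj (w x) (w y) := by
    rintro _ ⟨π, τ, rfl⟩ x y ⟨i, h⟩
    exact ⟨_, h.wr π τ⟩
  refine ⟨fun h => ?_, key w hw x y⟩
  simpa using key _ (inv_mem hw) _ _ h

theorem adjAt_update (x : ι → A) (i : ι) {a : A} (h : x i ≠ a) :
    AdjAt i x (Function.update x i a) :=
  ⟨by simpa using h, fun j hj => by simp [hj]⟩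

end Defs

variable {ι A : Type*} [Fintype ι] [DecidableEq ι] [Fintype A] [DecidableEq A]

omit [Fintype A] in
theorem adj_ind (P : (ι → A) → Prop) (hP : ∀ x y, Adj x y → P x → P y) {x : ι → A} (hx : P x)
    (y : ι → A) : P y := by
  have key : ∀ s : Finset ι, P fun i => if i ∈ s then y i else x i := by
    intro s
    induction s using Finset.induction_on with
    | empty => simpa using hx
    | insert a s ha ih =>
      by_cases h : x a = y a
      · convert ih using 2 with i
        by_cases hi : i = a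
        · subst hi; simp [h]
        · simp [hi]
      · exact hP _ _ ⟨a, by simpa [ha] using h, fun j hj => by simp [hj]⟩ ih
  simpa using key Finset.univ

/-- Groups that contain the even part of the wreath product. -/
structure Big (G : Subgroup (Perm (ι → A))) : Prop where
  alt : ∀ i, ∀ σ ∈ alternatingGroup A, co i σ ∈ G
  lift : ∀ w ∈ WW ι A, ∀ i, ∃ τ, co i τ * w ∈ G

omit [Fintype ι] in
theorem Big.of_le {G : Subgroup (Perm (ι → A))} (h : WW ι A ≤ G) : Big G :=
  ⟨fun i σ _ => h (co_mem i σ), fun w hw _ => ⟨1, by simpa using h hw⟩⟩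

omit [Fintype ι] in
theorem Big.move {G : Subgroup (Perm (ι → A))} (h : Big G) (i j : ι) :
    ∃ π τ, wr π τ ∈ G ∧ π i = j := by
  obtain ⟨τ, hτ⟩ := h.lift _ (wr_mem (swap i j) 1) i
  rw [co_eq, wr_mul] at hτ
  exact ⟨_, _, hτ, by simp⟩

theorem Big.adj_trans (h5 : 5 ≤ Fintype.card A) {G : Subgroup (Perm (ι → A))} (h : Big G)
    {i j : ι} {x y p q : ι → A} (h1 : AdjAt i x y) (h2 : AdjAt j p q) :
    ∃ g ∈ G, g x = p ∧ g y = q := by
  obtain ⟨π, τ, hg, rfl⟩ := h.move i j
  have h3 := h1.wr π τ
  have : ∀ l, ∃ σ ∈ alternatingGroup A, σ (wr π τ x l) = p l ∧ σ (wr π τ y l) = q l := by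
    intro l
    by_cases hl : l = π i
    · subst hl; exact two_trans h5 h3.1 h2.1
    · rw [← h3.2 l hl, ← h2.2 l hl]
      obtain ⟨u, hu, -⟩ := fresh h5 (wr π τ x l) (p l) (p l) (p l)
      obtain ⟨v, hv, -⟩ := fresh h5 (p l) (p l) (p l) (p l)
      obtain ⟨σ, hσ, e, -⟩ := two_trans h5 hu.symm hv.symm
      exact ⟨σ, hσ, e, e⟩
  choose σ hσ e1 e2 using this
  exact ⟨_, mul_mem (base_mem G σ fun l => h.alt l _ (hσ l)) hg, funext e1, funext e2⟩

theorem Big.prim (h5 : 5 ≤ Fintype.card A) {G : Subgroup (Perm (ι → A))} (h : Big G) :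
    IsPreprimitive G (ι → A) where
  exists_smul_eq x y := by
    refine adj_ind (fun y => ∃ g : G, g • x = y) ?_ ⟨1, rfl⟩ y
    rintro p q ⟨i, hi⟩ ⟨g, rfl⟩
    obtain ⟨k, hk, e, -⟩ := h.adj_trans h5 hi ⟨hi.1.symm, fun j hj => (hi.2 j hj).symm⟩
    exact ⟨⟨k, hk⟩ * g, by rw [mul_smul]; exact e⟩
  isTrivialBlock_of_isBlock {B} hB := by
    by_cases hs : B.Subsingleton
    · exact Or.inl hs
    right
    obtain ⟨f, hf, g, hg, hfg⟩ := Set.not_subsingleton_iff.1 hs
    obtain ⟨i, hi⟩ := Function.ne_iff.1 hfg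
    obtain ⟨u, uf, ug, -⟩ := fresh h5 (f i) (g i) (g i) (g i)
    obtain ⟨v, vf, vg, vu, -⟩ := fresh h5 (f i) (g i) u u
    have st : ∀ k ∈ G, ∀ p ∈ B, k p ∈ B → ∀ q ∈ B, k q ∈ B := by
      intro k hk p hp hkp q hq
      have := hB.smul_eq_of_mem (g := (⟨k, hk⟩ : G)) hp hkp
      rw [← this]
      exact Set.smul_mem_smul_set hq
    have hk := h.alt i _ (c3_alt ug.symm vg.symm vu.symm)
    have h1 : co i (c3 (g i) u v) g ∈ B :=
      st _ hk f hf (by rwa [co_fix.2 (c3_o hi uf.symm vf.symm)]) g hg
    have h2 : AdjAt i g (co i (c3 (g i) u v) g) :=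
      ⟨by rw [co_same, c3_a ug.symm vg.symm]; exact ug.symm, fun j hj => (co_ne hj _ _).symm⟩
    refine Set.eq_univ_of_forall (adj_ind (· ∈ B) ?_ hg)
    rintro p q ⟨j, hj⟩ hp
    obtain ⟨k, hk, e1, e2⟩ := h.adj_trans h5 h2 hj
    exact e2 ▸ st k hk g hg (e1 ▸ hp) _ h1

theorem three_conj {σ : Perm A} (h : σ.IsThreeCycle) (τ : Perm A) :
    (τ * σ * τ⁻¹).IsThreeCycle := by
  rwa [IsThreeCycle, cycleType_conj]

omit [Fintype ι] in
theorem Big.co_conj (h5 : 5 ≤ Fintype.card A) {G : Subgroup (Perm (ι → A))} (h : Big G)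
    (i j : ι) {σ σ' : Perm A} (h1 : σ.IsThreeCycle) (h2 : σ'.IsThreeCycle) :
    ∃ w ∈ G, w ∈ WW ι A ∧ w * co i σ * w⁻¹ = co j σ' := by
  obtain ⟨π, τ, hg, rfl⟩ := h.move i j
  have h3 := three_conj h1 (τ (π i))
  obtain ⟨s, hs⟩ := isConj_iff.1 (alternatingGroup.isThreeCycle_isConj (by simpa using h5)
    (σ := ⟨_, h3.mem_alternatingGroup⟩) (τ := ⟨_, h2.mem_alternatingGroup⟩) h3 h2)
  refine ⟨co (π i) s * wr π τ, mul_mem (h.alt _ _ s.2) hg, mul_mem (co_mem ..) (wr_mem ..), ?_⟩
  have hs' : (s : Perm A) * (τ (π i) * σ * (τ (π i))⁻¹) * (s : Perm A)⁻¹ = σ' :=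
    congrArg Subtype.val hs
  rw [← hs', map_mul, map_mul, map_inv, ← wr_conj_co]
  group

theorem fix_card_conj {X : Type*} (g t : Perm X) :
    Nat.card {f // (g * t * g⁻¹) f = f} = Nat.card {f // t f = f} :=
  Nat.card_congr (Equiv.subtypeEquiv g⁻¹ fun f => by
    rw [mul_apply, mul_apply, ← Perm.eq_inv_iff_eq])

/-- Conjugates of coordinate 3-cycles inside the wreath product are coordinate 3-cycles. -/
theorem recog (h5 : 5 ≤ Fintype.card A) {g : Perm (ι → A)} {i : ι} {σ : Perm A}
    (hσ : σ.IsThreeCycle) (hw : g * co i σ * g⁻¹ ∈ WW ι A) :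
    ∃ j σ', IsThreeCycle σ' ∧ g * co i σ * g⁻¹ = co j σ' := by
  obtain ⟨π, τ, hw⟩ := hw
  have hc : ∀ j σ', IsThreeCycle σ' →
      Nat.card {f // wr π τ f = f} = Nat.card {f : ι → A // co j σ' f = f} := by
    intro j σ' h'
    obtain ⟨w, -, -, e⟩ := (Big.of_le le_rfl).co_conj h5 i j hσ h'
    rw [← hw, ← e, fix_card_conj, fix_card_conj]
  by_cases hπ : π = 1
  · subst hπ
    have h3 : ∀ j, τ j ^ 3 = 1 := by
      intro j
      have : wr 1 τ ^ 3 = 1 := by
        rw [← hw, conj_pow, ← map_pow, ← hσ.orderOf, pow_orderOf_eq_one, map_one]; simp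
      ext a
      have := congrArg (fun k : Perm (ι → A) => k (fun _ => a) j) this
      simpa [pow_succ, wr1_apply] using this
    obtain ⟨j, hj⟩ : ∃ j, τ j ≠ 1 := by
      by_contra hh
      push Not at hh
      rw [show τ = 1 from funext hh, wr_one, mul_inv_eq_one, mul_eq_left] at hw
      exact hσ.ne_one (co_eq_one hw)
    obtain ⟨x, hx⟩ : ∃ x, τ j x ≠ x := by
      by_contra h
      push Not at h
      exact hj (Equiv.ext h)
    have e3 : τ j (τ j (τ j x)) = x := by
      simpa [pow_succ] using congrArg (fun k : Perm A => k x) (h3 j)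
    have n1 : τ j (τ j x) ≠ τ j x := fun hh => hx ((τ j).injective hh)
    have n2 : τ j (τ j x) ≠ x := fun hh => hx (by rw [hh] at e3; exact e3)
    have h' := c3_three hx.symm n2.symm n1.symm
    have hsub : ∀ f, wr 1 τ f = f → co j (c3 x (τ j x) (τ j (τ j x))) f = f := by
      intro f hf
      have hf' : τ j (f j) = f j := congrFun hf j
      rw [co_fix, c3_o]
      · rintro hh; rw [hh] at hf'; exact hx hf'
      · rintro hh; rw [hh] at hf'; exact n1 hf'
      · rintro hh; rw [hh, e3] at hf'; exact n2 hf'.symm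
    have hsurj := (Function.Injective.bijective_of_nat_card_le
      (f := fun f : {f // wr 1 τ f = f} =>
        (⟨f.1, hsub _ f.2⟩ : {f : ι → A // co j (c3 x (τ j x) (τ j (τ j x))) f = f}))
      (fun a b hh => Subtype.ext (Subtype.mk.inj hh)) (hc j _ h').ge).2
    have hsup : ∀ f : ι → A, c3 x (τ j x) (τ j (τ j x)) (f j) = f j → wr 1 τ f = f := by
      intro f hf
      obtain ⟨⟨f', h1⟩, h2⟩ := hsurj ⟨f, co_fix.2 hf⟩
      exact (Subtype.mk.inj h2) ▸ h1
    obtain ⟨u, u1, u2, u3, -⟩ := fresh h5 x (τ j x) (τ j (τ j x)) x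
    refine ⟨j, _, h', hw.trans ?_⟩
    ext f l
    by_cases hl : l = j
    · subst hl
      rw [co_same]
      change τ l (f l) = _
      by_cases a1 : f l = x
      · rw [a1, c3_a hx.symm n2.symm]
      by_cases a2 : f l = τ l x
      · rw [a2, c3_b n2.symm n1.symm]
      by_cases a3 : f l = τ l (τ l x)
      · rw [a3, c3_c, e3]
      rw [c3_o a1 a2 a3]
      exact congrFun (hsup f (c3_o a1 a2 a3)) l
    · rw [co_ne hl]
      have := congrFun (hsup (Function.update f j u) (by simpa using c3_o u1 u2 u3)) l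
      simpa [wr1_apply, hl] using this
  · exfalso
    obtain ⟨j, hj⟩ : ∃ j, π.symm j ≠ j := by
      by_contra h
      push Not at h
      exact hπ (Equiv.ext fun l => by simpa using (congrArg π (h l)).symm)
    obtain ⟨a, b, c, ab, ac, bc, rfl⟩ := exists_c3 hσ
    obtain ⟨u, u1, u2, u3, -⟩ := fresh h5 a b c c
    obtain ⟨v, v1, v2, v3, vu⟩ := fresh h5 a b c u
    have hsurj := (Function.Injective.bijective_of_nat_card_le
      (f := fun f : {f // wr π τ f = f} =>
        (⟨Function.update f.1 j u, co_fix.2 (by simpa using c3_o u1 u2 u3)⟩ :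
          {f : ι → A // co j (c3 a b c) f = f}))
      (fun f f' hh => by
        have h1 : ∀ l, l ≠ j → f.1 l = f'.1 l := fun l hl => by
          simpa [hl] using congrFun (Subtype.mk.inj hh) l
        refine Subtype.ext (funext fun l => ?_)
        by_cases hl : l = j
        · rw [hl, ← congrFun f.2 j, ← congrFun f'.2 j, wr_apply, wr_apply, h1 _ hj]
        · exact h1 l hl) (hc j _ hσ).ge).2
    obtain ⟨f, hf⟩ := hsurj ⟨fun _ => v, co_fix.2 (c3_o v1 v2 v3)⟩
    exact vu (by simpa using (congrFun (Subtype.mk.inj hf) j).symm)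

omit [Fintype ι] [Fintype A] [DecidableEq A] [DecidableEq ι] in
theorem AdjAt.uniq {i j : ι} {x y : ι → A} (h : AdjAt i x y) (hj : x j ≠ y j) : j = i := by
  by_contra hh
  exact hj (h.2 j hh)

/-- Automorphisms of the Hamming graph. -/
theorem mem_of_adj (h5 : 5 ≤ Fintype.card A) {g : Perm (ι → A)}
    (hg : ∀ x y, Adj (g x) (g y) ↔ Adj x y) : g ∈ WW ι A := by
  obtain ⟨o⟩ : Nonempty A := Fintype.card_pos_iff.1 (by omega)
  obtain ⟨o', ho, -⟩ := fresh h5 o o o o
  let z : ι → A := fun _ => o
  have h1 : ∀ i a, a ≠ o → ∃ j, AdjAt j (g z) (g (Function.update z i a)) :=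
    fun i a ha => (hg _ _).2 ⟨i, adjAt_update z i ha.symm⟩
  choose p hp using fun i => h1 i o' ho
  have tri : ∀ {j j' : ι} {x y w : ι → A}, AdjAt j x y → AdjAt j' x w → Adj y w → j = j' := by
    rintro j j' x y w a1 a2 ⟨l, a3⟩
    by_contra hh
    have e1 : j = l := a3.uniq (by rw [← a2.2 j hh]; exact a1.1.symm)
    have e2 : j' = l := a3.uniq (by rw [← a1.2 j' (Ne.symm hh)]; exact a2.1)
    exact hh (e1.trans e2.symm)
  have hp' : ∀ i a, a ≠ o → AdjAt (p i) (g z) (g (Function.update z i a)) := by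
    intro i a ha
    by_cases h : a = o'
    · rw [h]; exact hp i
    obtain ⟨j, hj⟩ := h1 i a ha
    rwa [← tri hj (hp i) ((hg _ _).2 ⟨i, by simpa using h, fun l hl => by simp [hl]⟩)]
  have hoff : ∀ i a l, l ≠ p i → g (Function.update z i a) l = g z l := by
    intro i a l hl
    by_cases ha : a = o
    · rw [ha, show Function.update z i o = z from Function.update_eq_self i z]
    · exact ((hp' i a ha).2 l hl).symm
  have hpi : Function.Injective p := by
    intro i i' hh
    by_contra hne
    have hn : ¬ Adj (Function.update z i o') (Function.update z i' o') := by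
      rintro ⟨l, hl⟩
      have e1 : i = l := hl.uniq (by simpa [hne, z] using ho)
      have e2 : i' = l := hl.uniq (by simpa [Ne.symm hne, z] using ho.symm)
      exact hne (e1.trans e2.symm)
    refine hn ((hg _ _).1 ⟨p i, fun h0 => ?_, fun l hl => by
      rw [hoff i o' l hl, hoff i' o' l (hh ▸ hl)]⟩)
    have : g (Function.update z i o') = g (Function.update z i' o') := by
      ext l
      by_cases hl : l = p i
      · rw [hl, h0]
      · rw [hoff i o' l hl, hoff i' o' l (hh ▸ hl)]
    exact ho (by simpa [hne, z] using congrFun (g.injective this) i)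
  let π : Perm ι := Equiv.ofBijective p (Finite.injective_iff_bijective.1 hpi)
  let τ : ι → Perm A := fun l => Equiv.ofBijective
    (fun a => g (Function.update z (π.symm l) a) l)
    (Finite.injective_iff_bijective.1 fun a a' hh => by
      have : g (Function.update z (π.symm l) a) = g (Function.update z (π.symm l) a') := by
        ext l'
        by_cases hl : l' = l
        · rw [hl]; exact hh
        · have hl' : l' ≠ p (π.symm l) := by
            rwa [show p (π.symm l) = l from π.apply_symm_apply l]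
          rw [hoff _ _ l' hl', hoff _ _ l' hl']
      simpa using congrFun (g.injective this) (π.symm l))
  have hax : ∀ i a, g (Function.update z i a) = wr π τ (Function.update z i a) := by
    intro i a
    ext l
    change _ = g (Function.update z (π.symm l) (Function.update z i a (π.symm l))) l
    by_cases hl : π.symm l = i
    · rw [hl, Function.update_self]
    · rw [Function.update_of_ne hl, Function.update_eq_self, hoff]
      rintro rfl
      exact hl (π.symm_apply_apply i)
  refine ⟨π, τ, Equiv.ext fun x => ?_⟩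
  have key : ∀ n, ∀ x : ι → A, (Finset.univ.filter fun i => x i ≠ o).card = n →
      g x = wr π τ x := by
    intro n
    induction n using Nat.strong_induction_on with
    | _ n ih =>
    intro x hn
    by_cases hx : ∀ i j, x i ≠ o → x j ≠ o → i = j
    · by_cases h0 : ∀ i, x i = o
      · rcases isEmpty_or_nonempty ι with hι | ⟨⟨i⟩⟩
        · exact Subsingleton.elim _ _
        · have := hax i o
          rwa [Function.update_eq_self, show z = x from (funext h0).symm] at this
      · push Not at h0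
        obtain ⟨i, hi⟩ := h0
        have : x = Function.update z i (x i) := by
          ext l
          by_cases hl : l = i
          · rw [hl, Function.update_self]
          · rw [Function.update_of_ne hl]
            by_contra hh
            exact hl (hx l i hh hi)
        rw [this]; exact hax i _
    push Not at hx
    obtain ⟨i, j, hi, hj, ij⟩ := hx
    have lt : ∀ y : ι → A, (∀ l, x l = o → y l = o) → (y i = o ∨ y j = o) → g y = wr π τ y := by
      intro y h1 h2
      refine ih _ ?_ y rfl
      rw [← hn]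
      apply Finset.card_lt_card
      rw [Finset.ssubset_iff_of_subset fun l hl => by
        simp only [Finset.mem_filter, Finset.mem_univ, true_and] at hl ⊢
        exact fun hh => hl (h1 l hh)]
      rcases h2 with h2 | h2
      · exact ⟨i, by simpa using hi, by simpa using h2⟩
      · exact ⟨j, by simpa using hj, by simpa using h2⟩
    have up : ∀ (y : ι → A) (k : ι), (∀ l, x l = o → y l = o) →
        ∀ l, x l = o → Function.update y k o l = o := by
      intro y k h1 l hl
      by_cases hk : l = k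
      · rw [hk, Function.update_self]
      · rw [Function.update_of_ne hk, h1 l hl]
    have e1 := lt _ (up x i fun _ h => h) (Or.inl (Function.update_self ..))
    have e2 := lt _ (up x j fun _ h => h) (Or.inr (Function.update_self ..))
    have e3 := lt _ (up _ j (up x i fun _ h => h)) (Or.inr (Function.update_self ..))
    obtain ⟨q, hq⟩ := (wr π τ).surjective (g x)
    have a1 : Adj q (Function.update x i o) := by
      rw [← adj_iff_of_mem (wr_mem π τ), hq, ← e1, hg]; exact ⟨i, adjAt_update x i hi⟩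
    have a2 : Adj q (Function.update x j o) := by
      rw [← adj_iff_of_mem (wr_mem π τ), hq, ← e2, hg]; exact ⟨j, adjAt_update x j hj⟩
    have a3 : q ≠ Function.update (Function.update x i o) j o := by
      intro hh
      rw [hh, ← e3] at hq
      exact hj (by simpa using (congrFun (g.injective hq) j).symm)
    obtain ⟨l1, b1⟩ := a1
    obtain ⟨l2, b2⟩ := a2
    rw [← hq]
    congr 1
    by_cases c1 : q i = o
    · exfalso
      have d2 : i = l2 := b2.uniq (by rw [c1, Function.update_of_ne ij]; exact hi.symm)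
      subst d2
      have c2 : q j = o := by rw [b2.2 j (Ne.symm ij), Function.update_self]
      apply a3
      ext l
      by_cases lj : l = j
      · rw [lj, c2, Function.update_self]
      by_cases li : l = i
      · rw [li, c1, Function.update_of_ne ij, Function.update_self]
      rw [b2.2 l li, Function.update_of_ne lj, Function.update_of_ne lj, Function.update_of_ne li]
    · have d1 : i = l1 := b1.uniq (by rwa [Function.update_self])
      subst d1
      have c2 : q j = x j := by rw [b1.2 j (Ne.symm ij), Function.update_of_ne (Ne.symm ij)]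
      have d2 : j = l2 := b2.uniq (by rw [c2, Function.update_self]; exact hj)
      subst d2
      ext l
      by_cases li : l = i
      · rw [li, b2.2 i ij, Function.update_of_ne ij]
      · rw [b1.2 l li, Function.update_of_ne li]
  exact key _ x rfl

end Cfsg.Lib.PAct
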