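import Cfsg.Agent.Prod.C
import Cfsg.Agent.Prod.D

/-!
Overgroups of product-action wreath products, part E: the main theorem.
-/

set_option autoImplicit false

namespace Cfsg.Lib.PAct

open Equiv Equiv.Perm MulAction
open scoped commutatorElement Pointwise

theorem c3_conj {X : Type*} [DecidableEq X] (t : Perm X) (a b c : X) :
    t * c3 a b c * t⁻¹ = c3 (t a) (t b) (t c) := by
  rw [c3, c3, swap_apply_apply, swap_apply_apply]; group

theorem three_congr {X Y : Type*} [Fintype X] [DecidableEq X] [Fintype Y] [DecidableEq Y]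
    (e : X ≃ Y) {σ : Perm X} (h : σ.IsThreeCycle) : (e.permCongrHom σ).IsThreeCycle := by
  obtain ⟨a, b, c, ab, ac, bc, rfl⟩ := exists_c3 h
  have : ∀ a b, e.permCongrHom (swap a b) = swap (e a) (e b) :=
    fun a b => symm_trans_swap_trans a b e
  rw [c3, map_mul, this, this]
  exact c3_three (e.injective.ne ab) (e.injective.ne ac) (e.injective.ne bc)

section Split

variable {ι A : Type*} [DecidableEq ι]

/-- Permutations of the product, read on functions. -/
def sp (i : ι) : Perm (A × ({j // j ≠ i} → A)) ≃* Perm (ι → A) :=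
  (Equiv.funSplitAt i A).symm.permCongrHom

theorem sp_same (i : ι) (h : Perm (A × ({j // j ≠ i} → A))) (f : ι → A) :
    sp i h f i = (h (f i, fun j => f j)).1 := by
  simp [sp, Equiv.funSplitAt, Equiv.piSplitAt]

theorem sp_ne (i : ι) (h : Perm (A × ({j // j ≠ i} → A))) (f : ι → A) {j : ι} (hj : j ≠ i) :
    sp i h f j = (h (f i, fun j => f j)).2 ⟨j, hj⟩ := by
  simp [sp, Equiv.funSplitAt, Equiv.piSplitAt, hj]

theorem sp_pc1 (i : ι) (σ : Perm A) : sp i (pc σ 1) = co i σ := by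
  ext f l
  by_cases hl : l = i
  · rw [hl, sp_same, co_same]; rfl
  · rw [sp_ne i _ f hl, co_ne hl]; rfl

theorem sp_pc_co (i : ι) (j : {j // j ≠ i}) (σ : Perm A) : sp i (pc 1 (co j σ)) = co j.1 σ := by
  ext f l
  by_cases hl : l = i
  · rw [hl, sp_same, co_ne j.2.symm]; rfl
  · rw [sp_ne i _ f hl, pc_apply]
    by_cases hj : l = j
    · subst hj
      exact (co_same j σ _).trans (co_same ..).symm
    · rw [co_ne hj]
      exact co_ne (i := j) (j := ⟨l, hl⟩) (fun hh => hj (congrArg Subtype.val hh)) σ _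

theorem sp_pc_mem (i : ι) (τ : Perm A) {w : Perm ({j // j ≠ i} → A)}
    (hw : w ∈ WW {j // j ≠ i} A) : sp i (pc τ w) ∈ WW ι A := by
  obtain ⟨π, τ', rfl⟩ := hw
  refine ⟨ofSubtype π, fun j => if h : j = i then τ else τ' ⟨j, h⟩, ?_⟩
  ext f l
  have e : (ofSubtype π).symm = ofSubtype π⁻¹ := (map_inv ofSubtype π).symm
  rw [wr_apply, e]
  by_cases hl : l = i
  · rw [hl, sp_same, ofSubtype_apply_of_not_mem _ (by simp)]; simp
  · rw [sp_ne i _ f hl, ofSubtype_apply_coe π⁻¹ ⟨l, hl⟩, dif_neg hl]; rfl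

omit [DecidableEq ι] in
theorem WW_top [Subsingleton ι] (i : ι) : WW ι A = ⊤ := by
  have : Unique ι := uniqueOfSubsingleton i
  refine eq_top_iff.2 fun g _ => ⟨1, fun _ => (Equiv.funUnique ι A).permCongr g, ?_⟩
  ext f l
  rw [wr1_apply, Subsingleton.elim l default]
  have : f = (Equiv.funUnique ι A).symm (f default) := ((Equiv.funUnique ι A).symm_apply_apply f).symm
  conv_lhs => rw [this]
  rfl

end Split

variable {ι A : Type*} [Fintype ι] [DecidableEq ι] [Fintype A] [DecidableEq A]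

theorem sign_co (i : ι) (σ : Perm A) :
    sign (co i σ) = sign σ ^ (Fintype.card A ^ (Fintype.card ι - 1)) := by
  rw [← sp_pc1]
  have : pc σ (1 : Perm ({j // j ≠ i} → A)) = Equiv.prodCongrLeft fun _ => σ := rfl
  rw [this]
  refine (sign_permCongr _ _).trans ?_
  rw [sign_prodCongrLeft]
  simp

theorem co_alt (i : ι) {σ : Perm A} (h : σ ∈ alternatingGroup A) :
    co i σ ∈ alternatingGroup (ι → A) := by
  rw [mem_alternatingGroup, sign_co, mem_alternatingGroup.1 h, one_pow]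

variable {G : Subgroup (Perm (ι → A))}

theorem Big.fr (h5 : 5 ≤ Fintype.card A) (h : Big G) (n3 : ∀ g ∈ G, ¬ g.IsThreeCycle) (i : ι) :
    Fr (G.comap (sp i).toMonoidHom) (WW {j // j ≠ i} A) where
  h5 := h5
  alt σ hσ := by
    change sp i _ ∈ G
    rw [sp_pc1]; exact h.alt i σ hσ
  lift w hw := by
    obtain ⟨τ, hτ⟩ := h.lift _ (sp_pc_mem i 1 hw) i
    refine ⟨τ, ?_⟩
    change sp i _ ∈ G
    rwa [← sp_pc1, ← map_mul, pc_mul, one_mul, mul_one] at hτ
  prim := (Big.of_le le_rfl).prim h5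
  n3 g hg h3 := n3 _ hg (three_congr _ h3)

theorem Big.diag (h5 : 5 ≤ Fintype.card A) (h : Big G) (n3 : ∀ g ∈ G, ¬ g.IsThreeCycle) (j : ι)
    {u : Perm (ι → A)} (hu : u ∈ G) (hl : ∀ f l, l ≠ j → u f l = f l) : ∃ τ, u = co j τ := by
  obtain ⟨v, rfl⟩ := (sp j).surjective u
  obtain ⟨τ, hτ⟩ := (h.fr h5 n3 j).diag (g := v) hu fun a b => by
    ext l
    have := hl ((Equiv.funSplitAt j A).symm (a, b)) l l.2
    rw [sp_ne j _ _ l.2] at this
    have e1 : (Equiv.funSplitAt j A).symm (a, b) j = a := by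
      simp [Equiv.funSplitAt, Equiv.piSplitAt]
    have e2 : ∀ l : {l // l ≠ j}, (Equiv.funSplitAt j A).symm (a, b) l = b l := fun l => by
      simp [Equiv.funSplitAt, Equiv.piSplitAt, l.2]
    simpa only [e1, e2] using this
  exact ⟨τ, by rw [hτ, sp_pc1]⟩

variable (ι A) in
/-- The dichotomy. -/
def Dich : Prop :=
  ∀ G : Subgroup (Perm (ι → A)), Big G → G ≤ WW ι A ∨ alternatingGroup (ι → A) ≤ G

theorem Dich.normal (h5 : 5 ≤ Fintype.card A) (H : Dich ι A) (L : Subgroup (Perm (ι → A)))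
    (hL : ∀ w ∈ WW ι A, ∀ l ∈ L, w * l * w⁻¹ ∈ L) (hb : L ≠ ⊥) (j : ι) {σ : Perm A}
    (hσ : σ ∈ alternatingGroup A) : co j σ ∈ L := by
  obtain ⟨⟨l, hl⟩, hl1⟩ := (Subgroup.ne_bot_iff_exists_ne_one).1 hb
  have hl1' : l ≠ 1 := fun hh => hl1 (Subtype.ext hh)
  rcases H (L ⊔ WW ι A) (Big.of_le le_sup_right) with h | h
  · have key : ∀ i s, s ≠ 1 → co i s ∈ L → co j σ ∈ L := by
      intro i s hs hm
      have h1 := alt_le h5 (L.comap (co i)) (fun t _ k hk => by
        have := hL _ (co_mem i t) _ hk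
        rwa [← map_inv, ← map_mul, ← map_mul] at this) (k := s) hm hs hσ
      have := hL _ (wr_mem (swap i j) 1) _ h1
      rw [wr_conj_co] at this
      simpa using this
    obtain ⟨π, τ, rfl⟩ := h (Subgroup.mem_sup_left hl)
    have hc : ∀ i s, co (π i) (τ (π i) * s * (τ (π i))⁻¹) * co i s⁻¹ ∈ L := by
      intro i s
      have := L.mul_mem hl (hL _ (co_mem i s) _ (L.inv_mem hl))
      rw [← wr_conj_co, map_inv]
      simpa only [mul_assoc] using this
    by_cases hπ : π = 1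
    · subst hπ
      obtain ⟨i, hi⟩ : ∃ i, τ i ≠ 1 := by
        by_contra hh
        push Not at hh
        exact hl1' (by rw [show τ = 1 from funext hh, wr_one])
      obtain ⟨s, -, hs⟩ := exists_noncomm h5 hi
      have := hc i s
      rw [one_apply, ← map_mul] at this
      refine key i _ (fun hh => hs ?_) this
      rw [mul_inv_eq_one, mul_inv_eq_iff_eq_mul] at hh
      exact hh.symm
    · obtain ⟨i, hi⟩ : ∃ i, π i ≠ i := by
        by_contra hh
        push Not at hh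
        exact hπ (Equiv.ext hh)
      obtain ⟨a⟩ : Nonempty A := Fintype.card_pos_iff.1 (by omega)
      obtain ⟨b, ba, -⟩ := fresh h5 a a a a
      have hs1 : swap a b ≠ 1 := fun hh => ba (swap_eq_one_iff.1 hh).symm
      obtain ⟨s, -, hs⟩ := exists_noncomm h5 hs1
      have h1 := hc i (swap a b)
      have h2 := L.mul_mem (L.inv_mem h1) (hL _ (co_mem i s) _ h1)
      have e : (co (π i) (τ (π i) * swap a b * (τ (π i))⁻¹) * co i (swap a b)⁻¹)⁻¹ *
          (co i s * (co (π i) (τ (π i) * swap a b * (τ (π i))⁻¹) * co i (swap a b)⁻¹) *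
            (co i s)⁻¹) = co i (swap a b * s * (swap a b)⁻¹ * s⁻¹) := by
        rw [← mul_assoc (co i s), ← co_comm hi]
        simp only [map_mul, map_inv]
        group
      rw [e] at h2
      refine key i _ (fun hh => hs ?_) h2
      rw [mul_inv_eq_one, mul_inv_eq_iff_eq_mul] at hh
      exact hh.symm
  · have hN : L ⊔ WW ι A ≤ Subgroup.normalizer L := by
      refine sup_le Subgroup.le_normalizer fun w hw => Subgroup.mem_normalizer_iff.2 fun k => ?_
      refine ⟨hL w hw k, fun hk => ?_⟩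
      have := hL _ (inv_mem hw) _ hk
      simpa [mul_assoc] using this
    refine alt_le ?_ L (fun t ht k hk => (Subgroup.mem_normalizer_iff.1 (hN (h ht)) k).1 hk) hl
      hl1' (co_alt j hσ)
    rw [Fintype.card_fun]
    have : 0 < Fintype.card ι := Fintype.card_pos_iff.2 ⟨j⟩
    exact h5.trans (Nat.le_self_pow this.ne' _)

theorem Big.fr2 (h5 : 5 ≤ Fintype.card A) (h : Big G) (n3 : ∀ g ∈ G, ¬ g.IsThreeCycle) (i : ι)
    (H : Dich {j // j ≠ i} A) (j : {j // j ≠ i}) :
    Fr2 (G.comap (sp i).toMonoidHom) (WW {j // j ≠ i} A) where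
  toFr := h.fr h5 n3 i
  nrm := by
    obtain ⟨a⟩ : Nonempty A := Fintype.card_pos_iff.1 (by omega)
    obtain ⟨b, ba, -⟩ := fresh h5 a a a a
    obtain ⟨c, ca, cb, -⟩ := fresh h5 a b a a
    have h3 := c3_three ba.symm ca.symm cb.symm
    obtain ⟨s, hs3, hs⟩ := exists_noncomm h5 h3.ne_one
    have hne : ⁅s, c3 a b c⁆ ≠ 1 := fun hh => hs (commutatorElement_eq_one_iff_mul_comm.1 hh)
    refine ⟨co j s, co j (c3 a b c), ?_, fun L hL hb =>
      ⟨H.normal h5 L hL hb j hs3.mem_alternatingGroup,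
        H.normal h5 L hL hb j h3.mem_alternatingGroup⟩, fun d hd => ?_⟩
    · rw [← map_commutatorElement]
      exact fun hh => hne (co_eq_one hh)
    rw [← map_commutatorElement] at hd
    have ev : ∀ f : ι → A, ∀ l (hl : l ≠ i), sp i (on d (co j ⁅s, c3 a b c⁆)) f l =
        if f i = d then co j ⁅s, c3 a b c⁆ (fun j => f j) ⟨l, hl⟩ else f l := by
      intro f l hl
      rw [sp_ne i _ f hl]
      split_ifs with hf
      · rw [hf, on_same]
      · rw [on_ne hf]
    obtain ⟨τ, hτ⟩ := h.diag h5 n3 j (u := sp i (on d (co j ⁅s, c3 a b c⁆))) hd (by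
      intro f l hl
      by_cases hi : l = i
      · rw [hi, sp_same]
        rfl
      · rw [ev f l hi]
        split_ifs
        · rw [co_ne fun hh => hl (congrArg Subtype.val hh)]
        · rfl)
    obtain ⟨d', hd', -⟩ := fresh h5 d d d d
    apply hne
    ext x
    have e1 := ev (Function.update (fun _ => x) i d) j j.2
    have e2 := ev (Function.update (fun _ => x) i d') j j.2
    rw [hτ, co_same] at e1 e2
    simp only [Function.update_self, if_true, if_neg hd', co_same,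
      Function.update_of_ne j.2] at e1 e2
    rw [← e1, e2, one_apply]
  odd b := by
    obtain ⟨x, hx, -⟩ := fresh h5 (b j) (b j) (b j) (b j)
    obtain ⟨y, hy, yx, -⟩ := fresh h5 (b j) x x x
    obtain ⟨τ, hτ⟩ := h.lift _ (co_mem i (swap x y)) j
    obtain ⟨σ, hσ, e, -⟩ := adj h5 τ (b j) (b j) (b j)
    refine ⟨co j (σ⁻¹ * τ), co_mem .., co_fix.2 (by rw [mul_apply, ← e]; simp), swap x y,
      sign_swap yx.symm, ?_⟩
    change sp i _ ∈ G
    have := mul_mem (h.alt j _ (inv_mem hσ)) hτ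
    rwa [← mul_assoc, ← map_mul, ← sp_pc_co, ← sp_pc1 i, ← map_mul, pc_mul, one_mul,
      mul_one] at this
  three h := by
    rw [Fintype.card_fun, h]
    exact fun hh => absurd (Nat.prime_three.dvd_of_dvd_pow hh) (by norm_num)

/-- The centraliser of a coordinate 3-cycle lies in the wreath product. -/
theorem Big.cent (h5 : 5 ≤ Fintype.card A) (h : Big G) (n3 : ∀ g ∈ G, ¬ g.IsThreeCycle)
    (H : ∀ i : ι, Dich {j // j ≠ i} A) [Nontrivial ι] (i : ι) {σ : Perm A} (hσ : σ.IsThreeCycle)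
    {g : Perm (ι → A)} (hg : g ∈ G) (hc : g * co i σ = co i σ * g) : g ∈ WW ι A := by
  have F : ∀ i : ι, Fr2 (G.comap (sp i).toMonoidHom) (WW {j // j ≠ i} A) := fun i => by
    obtain ⟨j, hj⟩ := exists_ne i
    exact h.fr2 h5 n3 i (H i) ⟨j, hj⟩
  obtain ⟨a, b, c, ab, ac, bc, rfl⟩ := exists_c3 hσ
  obtain ⟨v, rfl⟩ := (sp i).surjective g
  rw [← sp_pc1, ← map_mul, ← map_mul] at hc
  obtain ⟨ρ, hρ⟩ := exists_ind ab ac bc ((sp i).injective hc)
  suffices hs : Pi3 (G.comap (sp i).toMonoidHom) (c3 a b c) ≤ WW {j // j ≠ i} A by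
    have hm := hs ⟨v, hg, hρ⟩
    obtain ⟨τ, rfl⟩ := (F i).ind_W ab ac bc hg hm hρ
    exact sp_pc_mem i τ hm
  refine (H i _ (Big.of_le ((F i).le_Pi3 ab ac bc))).elim id fun hA => ?_
  rcases subsingleton_or_nontrivial {j // j ≠ i} with hs | hs
  · obtain ⟨j, hj⟩ := exists_ne i
    rw [WW_top ⟨j, hj⟩]; exact le_top
  exfalso
  obtain ⟨j, l, jl⟩ := exists_pair_ne {j // j ≠ i}
  let ω : A → {j // j ≠ i} → A := fun x => Function.update (fun _ => a) l x
  have ωi : Function.Injective ω := fun x y hh => by simpa [ω] using congrFun hh l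
  have ωj : ∀ x, ω x j = a := fun x => Function.update_of_ne jl ..
  obtain ⟨v0, hv0, hi0⟩ := hA (c3_alt (ωi.ne ab) (ωi.ne ac) (ωi.ne bc))
  have hcomm : ∀ s : Perm A, s.IsThreeCycle → s a = a →
      sp i v0 * co j.1 s = co j.1 s * sp i v0 := by
    intro s hs hsa
    have hy : Ind (c3 a b c) (pc 1 (co j s)) (co j s) := ind_pc (fun _ _ => rfl) _
    have hyG : pc 1 (co j s) ∈ G.comap (sp i).toMonoidHom := by
      change sp i _ ∈ G
      rw [sp_pc_co]; exact h.alt _ _ hs.mem_alternatingGroup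
    have h1 := ((hi0.mul hy).mul hi0.inv).mul hy.inv
    have fx : ∀ x, co j s (ω x) = ω x := fun x => co_fix.2 (by rw [ωj, hsa])
    have e : c3 (ω a) (ω b) (ω c) * co j s * (c3 (ω a) (ω b) (ω c))⁻¹ * (co j s)⁻¹ = 1 := by
      have := c3_conj (co j s) (ω a) (ω b) (ω c)
      rw [fx, fx, fx, mul_inv_eq_iff_eq_mul] at this
      rw [← this]; group
    rw [e] at h1
    obtain ⟨τ, hτ⟩ := (F i).ind_one ab ac bc
      (mul_mem (mul_mem (mul_mem hv0 hyG) (inv_mem hv0)) (inv_mem hyG)) h1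
    have h2 := congrArg (sp i) hτ
    rw [map_mul, map_mul, map_mul, map_inv, map_inv, sp_pc_co, sp_pc1,
      mul_inv_eq_iff_eq_mul] at h2
    obtain ⟨j', s', -, h3⟩ := recog h5 hs (g := sp i v0) (i := j.1)
      (h2 ▸ mul_mem (co_mem ..) (co_mem ..))
    rw [h2] at h3
    have jj : j' = j := by
      by_contra hh
      apply hs.ne_one
      ext x
      have := congrArg (fun k : Perm (ι → A) => k (fun _ => x) j) h3
      simpa [co_ne j.2, co_ne (Ne.symm hh)] using this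
    subst jj
    have : τ = 1 := by
      ext x
      have := congrArg (fun k : Perm (ι → A) => k (fun _ => x) i) h3
      simpa [co_ne j.2.symm] using this
    rwa [this, map_one, one_mul, mul_inv_eq_iff_eq_mul] at h2
  obtain ⟨v1, hv1⟩ := (sp j.1).surjective (sp i v0)
  have h4 := (F j.1).comm_all (g := v1) (by change sp j.1 v1 ∈ G; rw [hv1]; exact hv0) a
    (fun s hs hsa => (sp j.1).injective (by
      rw [map_mul, map_mul, sp_pc1, hv1]; exact hcomm s hs hsa)) (swap a b)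
  have h5' := congrArg (sp j.1) h4
  rw [map_mul, map_mul, sp_pc1, hv1, ← sp_pc_co, ← map_mul, ← map_mul] at h5'
  have h6 := congrArg (fun k : Perm (A × ({j // j ≠ i} → A)) => (k (a, ω a)).2)
    ((sp i).injective h5')
  have ha : c3 a b c a ≠ a := (c3_mv ab ac bc).2 (by simp)
  simp only [mul_apply, pc_apply, one_apply] at h6
  rw [hi0.2 a ha, ← Prod.mk.eta (p := v0 _), pc_apply, hi0.2 a ha, c3_a (ωi.ne ab) (ωi.ne ac)]
    at h6
  have nj : ∀ x, co j (swap a b) (ω a) ≠ ω x := fun x hh => by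
    have := congrFun hh j
    rw [co_same, ωj, ωj, swap_apply_left] at this
    exact ab this.symm
  rw [c3_o (nj a) (nj b) (nj c)] at h6
  exact ab (ωi ((co j (swap a b)).injective h6))

theorem pg3 {X : Type*} [Group X] {t : X} (h : t ^ 3 = 1) : IsPGroup 3 (Subgroup.zpowers t) := by
  rintro ⟨_, k, rfl⟩
  refine ⟨1, Subtype.ext ?_⟩
  change (t ^ k) ^ (3 ^ 1) = 1
  rw [pow_one, ← zpow_natCast, ← zpow_mul, mul_comm, zpow_mul, zpow_natCast, h, one_zpow]

theorem Big.le_WW (h5 : 5 ≤ Fintype.card A) (h : Big G) (i : ι)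
    (hC : ∀ (i : ι) (σ : Perm A), σ.IsThreeCycle → ∀ g ∈ G, g * co i σ = co i σ * g →
      g ∈ WW ι A) : G ≤ WW ι A := by
  have cj : ∀ (i : ι) (σ : Perm A), σ.IsThreeCycle → ∀ g ∈ G, g * co i σ * g⁻¹ ∈ WW ι A →
      g ∈ WW ι A := by
    intro i σ hσ g hg hw
    obtain ⟨j, σ', h', e⟩ := recog h5 hσ hw
    obtain ⟨w, hwG, hwW, e'⟩ := h.co_conj h5 i j hσ h'
    have := hC i σ hσ _ (mul_mem (inv_mem hwG) hg) (by
      calc w⁻¹ * g * co i σ = w⁻¹ * (g * co i σ * g⁻¹) * g := by group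
        _ = _ := by rw [e, ← e']; group)
    simpa using mul_mem hwW this
  have : Fact (Nat.Prime 3) := ⟨Nat.prime_three⟩
  have pW : ∀ R : Subgroup (Perm (ι → A)), R ≤ G → IsPGroup 3 R → ∀ σ : Perm A, σ.IsThreeCycle →
      co i σ ∈ R → R ≤ WW ι A := by
    intro R hR h3 σ hσ ht
    have := h3.isNilpotent
    rw [← Subgroup.subgroupOf_eq_top]
    refine normalizerCondition_iff_only_full_group_self_normalizing.1
      Group.normalizerCondition_of_isNilpotent _
      (le_antisymm (fun r hr => ?_) Subgroup.le_normalizer)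
    exact cj i σ hσ r (hR r.2) ((Subgroup.mem_normalizer_iff.1 hr ⟨_, ht⟩).1 (co_mem i σ))
  have ex : ∀ x y : ι → A, ∃ σ : Perm A, σ.IsThreeCycle ∧ co i σ x = x ∧ co i σ y = y := by
    intro x y
    obtain ⟨a, a1, a2, -⟩ := fresh h5 (x i) (y i) (x i) (x i)
    obtain ⟨b, b1, b2, ba, -⟩ := fresh h5 (x i) (y i) a a
    obtain ⟨c, c1, c2, ca, cb⟩ := fresh h5 (x i) (y i) a b
    exact ⟨_, c3_three ba.symm ca.symm cb.symm, co_fix.2 (c3_o a1.symm b1.symm c1.symm),
      co_fix.2 (c3_o a2.symm b2.symm c2.symm)⟩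
  have t3 : ∀ σ : Perm A, σ.IsThreeCycle → co i σ ^ 3 = 1 := fun σ hσ => by
    rw [← map_pow, ← hσ.orderOf, pow_orderOf_eq_one, map_one]
  intro g hg
  refine mem_of_adj h5 fun x y => ?_
  obtain ⟨σ, hσ, x1, y1⟩ := ex x y
  obtain ⟨σ', hσ', x2, y2⟩ := ex (g x) (g y)
  let L : Subgroup (Perm (ι → A)) := G ⊓ (stabilizer _ (g x) ⊓ stabilizer _ (g y))
  have m1 : g * co i σ * g⁻¹ ∈ L :=
    ⟨G.mul_mem (G.mul_mem hg (h.alt i σ hσ.mem_alternatingGroup)) (G.inv_mem hg),
      by simp [x1], by simp [y1]⟩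
  have m2 : co i σ' ∈ L := ⟨h.alt i σ' hσ'.mem_alternatingGroup, x2, y2⟩
  obtain ⟨Q, hQ⟩ := (pg3 (t := (⟨_, m1⟩ : L)) (Subtype.ext (by
    simp only [SubmonoidClass.mk_pow, conj_pow, t3 σ hσ]; simp))).exists_le_sylow
  obtain ⟨P, hP⟩ := (pg3 (t := (⟨_, m2⟩ : L)) (Subtype.ext (t3 σ' hσ'))).exists_le_sylow
  obtain ⟨k, hk⟩ := exists_smul_eq L Q P
  have hR := pW ((P : Subgroup L).map L.subtype) (by rintro _ ⟨r, -, rfl⟩; exact r.2.1)
    (P.2.map _) σ' hσ' ⟨_, hP (Subgroup.mem_zpowers _), rfl⟩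
  have hm : k * ⟨_, m1⟩ * k⁻¹ ∈ (P : Subgroup L) := by
    rw [← hk, Sylow.coe_subgroup_smul]
    exact Subgroup.smul_mem_pointwise_smul _ (MulAut.conj k) _ (hQ (Subgroup.mem_zpowers _))
  have hw := cj i σ hσ _ (mul_mem k.2.1 hg) (by
    have := hR ⟨_, hm, rfl⟩
    simpa [mul_assoc] using this)
  have e1 : (k : Perm (ι → A)) (g x) = g x := k.2.2.1
  have e2 : (k : Perm (ι → A)) (g y) = g y := k.2.2.2
  rw [← adj_iff_of_mem hw x y, mul_apply, mul_apply, e1, e2]

theorem dich (h5 : 5 ≤ Fintype.card A) (n : ℕ) : ∀ (ι : Type) [Fintype ι] [DecidableEq ι],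
    Fintype.card ι = n + 1 → Dich ι A := by
  induction n with
  | zero =>
    intro ι _ _ hn G _
    obtain ⟨i, hi⟩ := Fintype.card_eq_one_iff.1 hn
    have : Subsingleton ι := ⟨fun a b => (hi a).trans (hi b).symm⟩
    rw [WW_top i]; exact Or.inl le_top
  | succ n ih =>
    intro ι _ _ hn G h
    have : Nontrivial ι := Fintype.one_lt_card_iff_nontrivial.1 (by omega)
    by_cases n3 : ∀ g ∈ G, ¬ g.IsThreeCycle
    · obtain ⟨i⟩ : Nonempty ι := inferInstance
      exact Or.inl (h.le_WW h5 i fun i σ hσ g hg hc =>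
        h.cent h5 n3 (fun j => ih _ (by simp [hn])) i hσ hg hc)
    · push Not at n3
      obtain ⟨g, hg, h3⟩ := n3
      exact Or.inr (alternatingGroup_le_of_isPreprimitive_of_isThreeCycle_mem (h.prim h5) h3 hg)

end Cfsg.Lib.PAct
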